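import Mathlib

/-! Binary affine groups, part 1: the binary condition for a linear action, involutions, short elements. -/

namespace CfsgLib.BinAff

/-- The binary condition for `V ⋊ H`, phrased for the point stabiliser `H`. -/
def Bin (H V : Type*) [Group H] [AddCommGroup V] [DistribMulAction H V] : Prop :=
  ∀ R : Set (V × V), (∀ p ∈ R, ∃ h : H, h • p.1 = p.2) →
    (∀ p ∈ R, ∀ q ∈ R, ∃ h : H, h • (p.1 - q.1) = p.2 - q.2) → ∃ h : H, ∀ p ∈ R, h • p.1 = p.2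

variable {H V : Type*} [Group H] [AddCommGroup V] [DistribMulAction H V]

/-- `x ↦ g x - x`. -/
def dd (V : Type*) [AddCommGroup V] [DistribMulAction H V] (g : H) : V →+ V :=
  DistribSMul.toAddMonoidHom V g - AddMonoidHom.id V

@[simp] theorem dd_apply (g : H) (x : V) : dd V g x = g • x - x := rfl

/-- `[V, g]`. -/
def MM (V : Type*) [AddCommGroup V] [DistribMulAction H V] (g : H) : AddSubgroup V := (dd V g).range

/-- `C_V(g)`. -/
def WW (V : Type*) [AddCommGroup V] [DistribMulAction H V] (g : H) : AddSubgroup V := (dd V g).ker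

theorem mem_MM {g : H} {c : V} : c ∈ MM V g ↔ ∃ x, g • x - x = c := Iff.rfl

theorem mem_WW {g : H} {c : V} : c ∈ WW V g ↔ g • c = c := by
  rw [WW, AddMonoidHom.mem_ker, dd_apply, sub_eq_zero]

theorem sub_mem_MM (g : H) (x : V) : g • x - x ∈ MM V g := ⟨x, rfl⟩

theorem card_MM_mul (g : H) : Nat.card (MM V g) * Nat.card (WW V g) = Nat.card V := by
  rw [MM, WW, AddSubgroup.card_eq_card_quotient_mul_card_addSubgroup (dd V g).ker,
    Nat.card_congr (QuotientAddGroup.quotientKerEquivRange (dd V g)).toEquiv]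

theorem Bin.neg (hb : Bin H V) (g : H) (x : V) : ∃ h : H, h • (x - g • x) = g • x - x := by
  obtain ⟨h, hh⟩ := hb {(x, g • x), (x + g • x, x + g • x)} (by
    rintro p (rfl | rfl)
    exacts [⟨g, rfl⟩, ⟨1, one_smul _ _⟩]) (by
    rintro p (rfl | rfl) q (rfl | rfl)
    · exact ⟨1, by simp⟩
    · exact ⟨g⁻¹, by simp⟩
    · exact ⟨g⁻¹, by simp⟩
    · exact ⟨1, by simp⟩)
  have h1 : h • x = g • x := hh (x, g • x) (by simp)
  have h2 : h • (x + g • x) = x + g • x := hh (x + g • x, x + g • x) (by simp)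
  rw [smul_add, h1, add_comm x] at h2
  exact ⟨h, by rw [smul_sub, h1, add_left_cancel h2]⟩

theorem Bin.step (hb : Bin H V) (g : H) (S : Set V) (hS : ∀ y ∈ S, g • g • y = y) (z : V) :
    ∃ h : H, (∀ y ∈ S, h • y = g • y) ∧ h • z = g • z ∧ h • g • z = z := by
  have hi : ∀ y ∈ S, g⁻¹ • y = g • y := fun y hy => by rw [inv_smul_eq_iff, hS y hy]
  obtain ⟨k, hk⟩ := hb.neg g z
  have hk' : k • (g • z - z) = z - g • z := by rw [← neg_sub, smul_neg, hk, neg_sub]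
  obtain ⟨h, hh⟩ := hb ({p | p.1 ∈ S ∧ p.2 = g • p.1} ∪ {(z, g • z), (g • z, z)}) (by
    rintro p (⟨-, h⟩ | rfl | rfl)
    exacts [⟨g, h.symm⟩, ⟨g, rfl⟩, ⟨g⁻¹, by simp⟩]) (by
    rintro p (⟨h1, h⟩ | rfl | rfl) q (⟨h1', h'⟩ | rfl | rfl)
    · exact ⟨g, by rw [h, h', smul_sub]⟩
    · exact ⟨g, by rw [h, smul_sub]⟩
    · exact ⟨g⁻¹, by rw [h, smul_sub, hi _ h1, inv_smul_smul]⟩
    · exact ⟨g, by rw [h', smul_sub]⟩
    · exact ⟨1, by simp⟩
    · exact ⟨k, hk⟩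
    · exact ⟨g⁻¹, by rw [h', smul_sub, hi _ h1', inv_smul_smul]⟩
    · exact ⟨k, hk'⟩
    · exact ⟨1, by simp⟩)
  exact ⟨h, fun y hy => hh (y, g • y) (Or.inl ⟨hy, rfl⟩), hh (z, g • z) (by simp), hh (g • z, z) (by simp)⟩

theorem Bin.ext_inv [Finite V] [Finite H] [FaithfulSMul H V] (hb : Bin H V) (g : H) :
    ∃ τ : H, τ * τ = 1 ∧ ∀ y : V, g • g • y = y → τ • y = g • y := by
  obtain ⟨τ, hτ, hmax⟩ := Set.exists_max_image {h : H | ∀ y : V, g • g • y = y → h • y = g • y}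
    (fun h => Set.ncard {y : V | h • h • y = y}) (Set.toFinite _) ⟨g, fun _ _ => rfl⟩
  refine ⟨τ, FaithfulSMul.eq_of_smul_eq_smul (α := V) fun z => ?_, hτ⟩
  rw [mul_smul, one_smul]
  by_contra hz
  obtain ⟨h, h1, h2, h3⟩ := hb.step τ {y : V | τ • τ • y = y} (fun _ hy => hy) z
  have hsub : {y : V | τ • τ • y = y} ⊂ {y : V | h • h • y = y} := by
    refine ⟨fun y hy => ?_, fun hh => hz (hh (show h • h • z = z by rw [h2, h3]))⟩
    have hy' : τ • τ • y = y := hy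
    show h • h • y = y
    rw [h1 y hy, h1 (τ • y) (show τ • τ • τ • y = τ • y by rw [hy']), hy']
  refine absurd (hmax h fun y hy => ?_) (not_le.2 (Set.ncard_lt_ncard hsub))
  have e : τ • y = g • y := hτ y hy
  rw [h1 y (show τ • τ • y = y by rw [e, hτ (g • y) (by rw [hy]), hy]), e]

/-- If `g` fixes `S` pointwise then `x` and `g x` are swapped by an element of order at most two fixing `S`. -/
theorem Bin.inv_swap [Finite V] [Finite H] [FaithfulSMul H V] (hb : Bin H V) (g : H) (x : V) :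
    ∃ τ : H, τ * τ = 1 ∧ τ • x = g • x ∧ ∀ w : V, g • w = w → τ • w = w := by
  obtain ⟨h, h1, h2, h3⟩ := hb.step g {w : V | g • w = w} (fun y (hy : g • y = y) => by rw [hy, hy]) x
  obtain ⟨τ, t1, t2⟩ := hb.ext_inv h
  refine ⟨τ, t1, by rw [t2 x (by rw [h2, h3]), h2], fun w hw => ?_⟩
  have e : h • w = w := (h1 w hw).trans hw
  rw [t2 w (by rw [e, e]), e]

theorem Bin.transl (hb : Bin H V) (c : V) :
    ∃ h : H, ∀ (x : V) (g : H), g • x = x + c → h • x = x + c := by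
  obtain ⟨h, hh⟩ := hb {p | (∃ g : H, g • p.1 = p.1 + c) ∧ p.2 = p.1 + c} (by
    rintro p ⟨⟨g, hg⟩, h⟩
    exact ⟨g, hg.trans h.symm⟩) (by
    rintro p ⟨-, h⟩ q ⟨-, h'⟩
    exact ⟨1, by rw [h, h', one_smul]; abel⟩)
  exact ⟨h, fun x g hg => hh (x, x + c) ⟨⟨g, hg⟩, rfl⟩⟩

/-- The translation by `c` also fixes the fixed spaces. -/
theorem Bin.transl' (hb : Bin H V) (c : V) :
    ∃ h : H, ∀ (x : V) (g : H), g • x = x + c → h • x = x + c ∧ ∀ w : V, g • w = w → h • w = w := by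
  obtain ⟨h, hh⟩ := hb.transl c
  refine ⟨h, fun x g hg => ⟨hh x g hg, fun w hw => ?_⟩⟩
  have := hh (x + w) g (by rw [smul_add, hg, hw]; abel)
  rw [smul_add, hh x g hg, add_right_comm] at this
  exact add_left_cancel (add_right_cancel this)

/-- A vector of a subgroup on which `g` is fixed point free is not conjugate to a translate by a fixed vector. -/
theorem Bin.eq_zero_of_transl [Finite V] (hb : Bin H V) (g : H) (Y : AddSubgroup V)
    (hY : ∀ y ∈ Y, g • y ∈ Y) (hf : ∀ y ∈ Y, g • y = y → y = 0) {y z : V} (hy : y ∈ Y) (hz : g • z = z)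
    (n : H) (hn : n • y = y + z) : z = 0 := by
  obtain ⟨h, hh⟩ := hb.transl z
  have hzi : ∀ i : ℕ, g ^ i • z = z := fun i => by
    induction i with
    | zero => simp
    | succ i ih => rw [pow_succ, mul_smul, hz, ih]
  have h1 : ∀ i : ℕ, h • g ^ i • y = g ^ i • y + z := fun i =>
    hh _ (g ^ i * n * (g ^ i)⁻¹) (by rw [mul_smul, mul_smul, inv_smul_smul, hn, smul_add, hzi])
  let φ : Y → Y := fun a => ⟨g • a.1 - a.1, sub_mem (hY _ a.2) a.2⟩
  have hφ : Function.Injective φ := fun a b e => by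
    have e' : g • a.1 - a.1 = g • b.1 - b.1 := congrArg Subtype.val e
    refine Subtype.ext (sub_eq_zero.1 (hf _ (sub_mem a.2 b.2) ?_))
    rw [smul_sub, sub_eq_iff_eq_add.1 e']; abel
  have h2 : ∀ j i : ℕ, h • g ^ i • (φ^[j + 1] ⟨y, hy⟩).1 = g ^ i • (φ^[j + 1] ⟨y, hy⟩).1 := fun j => by
    induction j with
    | zero =>
      intro i
      show h • g ^ i • (g • y - y) = g ^ i • (g • y - y)
      rw [smul_sub, smul_sub, ← mul_smul (g ^ i) g, ← pow_succ, h1, h1]; abel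
    | succ j ih =>
      intro i
      rw [Function.iterate_succ_apply']
      show h • g ^ i • (g • _ - _) = g ^ i • (g • _ - _)
      rw [smul_sub, smul_sub, ← mul_smul (g ^ i) g, ← pow_succ, ih, ih]
  obtain ⟨k, hk, hp⟩ := hφ.mem_periodicPts ⟨y, hy⟩
  obtain ⟨j, rfl⟩ := Nat.exists_eq_succ_of_ne_zero hk.ne'
  have h3 := h2 j 0
  have h4 := h1 0
  rw [show φ^[j + 1] ⟨y, hy⟩ = ⟨y, hy⟩ from hp] at h3
  simp only [pow_zero, one_smul] at h3 h4
  rw [h3] at h4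
  simpa using h4

/-- Short elements: nontrivial with the smallest commutator space. -/
def Sh (V : Type*) [AddCommGroup V] [DistribMulAction H V] (t : H) : Prop :=
  t ≠ 1 ∧ ∀ g : H, g ≠ 1 → Nat.card (MM V t) ≤ Nat.card (MM V g)

theorem Sh.card_eq {t s : H} (ht : Sh V t) (hs : Sh V s) : Nat.card (MM V t) = Nat.card (MM V s) :=
  le_antisymm (ht.2 s hs.1) (hs.2 t ht.1)

theorem Sh.of_le {t s : H} (ht : Sh V t) (hs : s ≠ 1) (h : Nat.card (MM V s) ≤ Nat.card (MM V t)) : Sh V s :=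
  ⟨hs, fun g hg => h.trans (ht.2 g hg)⟩

theorem exists_smul_ne [FaithfulSMul H V] {t : H} (ht : t ≠ 1) : ∃ x : V, t • x ≠ x := by
  by_contra h
  push Not at h
  exact ht (FaithfulSMul.eq_of_smul_eq_smul (α := V) fun x => by rw [h, one_smul])

theorem exists_ne_zero_mem [FaithfulSMul H V] {t : H} (ht : t ≠ 1) : ∃ c ∈ MM V t, c ≠ 0 := by
  obtain ⟨x, hx⟩ := exists_smul_ne (V := V) ht
  exact ⟨_, sub_mem_MM t x, sub_ne_zero.2 hx⟩

theorem two_le_card_MM [Finite V] [FaithfulSMul H V] {t : H} (ht : t ≠ 1) : 2 ≤ Nat.card (MM V t) := by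
  obtain ⟨c, h1, h2⟩ := exists_ne_zero_mem (V := V) ht
  exact (AddSubgroup.one_lt_card_iff_ne_bot _).2 fun h => h2 (AddSubgroup.mem_bot.1 (h ▸ h1))

theorem card_MM_le_of_fix [Finite V] {t g : H} (h : ∀ w : V, t • w = w → g • w = w) :
    Nat.card (MM V g) ≤ Nat.card (MM V t) := by
  have h1 : Nat.card (WW V t) ≤ Nat.card (WW V g) :=
    AddSubgroup.card_le_of_le fun w hw => mem_WW.2 (h w (mem_WW.1 hw))
  have h2 := card_MM_mul (V := V) t
  have h3 := card_MM_mul (V := V) g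
  have h4 : 0 < Nat.card (WW V t) := Nat.card_pos
  by_contra hlt
  push Not at hlt
  nlinarith

theorem Sh.eq_one [Finite V] {t g : H} (ht : Sh V t) (h : ∀ w : V, t • w = w → g • w = w) {x : V}
    (hg : g • x = x) (hx : t • x ≠ x) : g = 1 := by
  by_contra hg1
  have h1 : Nat.card (WW V t) < Nat.card (WW V g) := by
    have hle : WW V t ≤ WW V g := fun w hw => mem_WW.2 (h w (mem_WW.1 hw))
    refine lt_of_le_of_ne (AddSubgroup.card_le_of_le hle) fun e => hx (mem_WW.1 ?_)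
    rw [AddSubgroup.eq_of_le_of_card_ge hle e.ge]
    exact mem_WW.2 hg
  have h2 := card_MM_mul (V := V) t
  have h3 := card_MM_mul (V := V) g
  have h4 := ht.2 g hg1
  have h5 : 0 < Nat.card (MM V t) := Nat.card_pos
  nlinarith

theorem Sh.conj {t : H} (ht : Sh V t) (h : H) : Sh V (h * t * h⁻¹) := by
  refine ⟨fun e => ht.1 (by simpa using e), fun g hg => le_trans (le_of_eq ?_) (ht.2 g hg)⟩
  refine Nat.card_congr ⟨fun c => ⟨h⁻¹ • c.1, ?_⟩, fun c => ⟨h • c.1, ?_⟩, fun c => by simp, fun c => by simp⟩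
  · obtain ⟨c, x, rfl⟩ := c
    exact ⟨h⁻¹ • x, by simp [smul_sub, mul_smul]⟩
  · obtain ⟨c, x, rfl⟩ := c
    exact ⟨h • x, by simp [smul_sub, mul_smul]⟩

theorem smul_mem_MM_conj {t : H} (h : H) {c : V} (hc : c ∈ MM V t) : h • c ∈ MM V (h * t * h⁻¹) := by
  obtain ⟨x, rfl⟩ := hc
  exact ⟨h • x, by simp [smul_sub, mul_smul]⟩

theorem smul_mem_MM_of_commute {t h : H} (hc : Commute h t) {c : V} (h1 : c ∈ MM V t) : h • c ∈ MM V t := by
  have := smul_mem_MM_conj h h1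
  rwa [hc.eq, mul_inv_cancel_right] at this

theorem smul_eq_neg {t : H} (ht : t * t = 1) {c : V} (hc : c ∈ MM V t) : t • c = -c := by
  obtain ⟨x, rfl⟩ := hc
  simp [smul_sub, ← mul_smul, ht]

variable [Finite V] [Finite H] [FaithfulSMul H V]

theorem Sh.mul_self (hb : Bin H V) {t : H} (ht : Sh V t) : t * t = 1 := by
  obtain ⟨x, hx⟩ := exists_smul_ne (V := V) ht.1
  obtain ⟨τ, h1, h2, h3⟩ := hb.inv_swap t x
  have : τ⁻¹ * t = 1 := ht.eq_one (fun w hw => by rw [mul_smul, hw, inv_smul_eq_iff, h3 w hw])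
    (by rw [mul_smul, inv_smul_eq_iff, h2]) hx
  rwa [← inv_mul_eq_one.1 this]

theorem Sh.inv_eq (hb : Bin H V) {t : H} (ht : Sh V t) : t⁻¹ = t := inv_eq_of_mul_eq_one_right (ht.mul_self hb)

theorem Sh.smul_smul (hb : Bin H V) {t : H} (ht : Sh V t) (x : V) : t • t • x = x := by
  rw [← mul_smul, ht.mul_self hb, one_smul]

omit [Finite H] [FaithfulSMul H V] in
/-- The key property of short elements. -/
theorem Sh.key (hb : Bin H V) {t : H} (ht : Sh V t) {g : H} {x : V} (hc : g • x - x ∈ MM V t)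
    (h0 : g • x ≠ x) : g • x = t • x ∧ ∀ w : V, g • w = w → t • w = w := by
  obtain ⟨y, hy⟩ := hc
  rw [dd_apply] at hy
  obtain ⟨h, hh⟩ := hb.transl' (g • x - x)
  obtain ⟨a1, a2⟩ := hh y t (by rw [← hy]; abel)
  obtain ⟨b1, b2⟩ := hh x g (by abel)
  have hy0 : t • y ≠ y := fun e => h0 (by rw [e, sub_self] at hy; exact sub_eq_zero.1 hy.symm)
  have e : t⁻¹ * h = 1 := ht.eq_one (fun w hw => by rw [mul_smul, a2 w hw, inv_smul_eq_iff, hw])
    (by rw [mul_smul, a1, inv_smul_eq_iff, ← hy]; abel) hy0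
  rw [inv_mul_eq_one] at e
  subst e
  exact ⟨by rw [b1]; abel, b2⟩

omit [Finite H] [FaithfulSMul H V] in
theorem Sh.eq_of_mem (hb : Bin H V) {t s : H} (ht : Sh V t) (hs : Sh V s) {c : V} (h1 : c ∈ MM V t)
    (h2 : c ∈ MM V s) (h0 : c ≠ 0) : t = s := by
  obtain ⟨x, rfl⟩ := h2
  rw [dd_apply] at h1 h0
  obtain ⟨a1, a2⟩ := ht.key hb h1 (sub_ne_zero.1 h0)
  have : s⁻¹ * t = 1 := hs.eq_one (fun w hw => by rw [mul_smul, a2 w hw, inv_smul_eq_iff, hw])
    (by rw [mul_smul, inv_smul_eq_iff, a1]) (sub_ne_zero.1 h0)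
  exact (inv_mul_eq_one.1 this).symm

omit [Finite H] [FaithfulSMul H V] in
theorem Sh.eq_zero (hb : Bin H V) {t s : H} (ht : Sh V t) (hs : Sh V s) (hne : t ≠ s) {c : V} (h1 : c ∈ MM V t)
    (h2 : c ∈ MM V s) : c = 0 := by
  by_contra h0
  exact hne (ht.eq_of_mem hb hs h1 h2 h0)

omit [Finite H] [FaithfulSMul H V] in
theorem Sh.commute (hb : Bin H V) {t h : H} (ht : Sh V t) {c : V} (h1 : c ∈ MM V t) (h0 : c ≠ 0)
    (h2 : h • c ∈ MM V t) : Commute h t := by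
  have := (ht.conj h).eq_of_mem hb ht (smul_mem_MM_conj h h1) h2 (fun e => h0 ((smul_eq_zero_iff_eq h).1 e))
  rwa [mul_inv_eq_iff_eq_mul] at this

omit [Finite H] [FaithfulSMul H V] in
theorem Sh.fix_of_commute (hb : Bin H V) {t s : H} (ht : Sh V t) (hs : Sh V s) (hne : t ≠ s) (hc : Commute s t)
    {c : V} (h1 : c ∈ MM V t) : s • c = c :=
  sub_eq_zero.1 (ht.eq_zero hb hs hne (sub_mem (smul_mem_MM_of_commute hc h1) h1) (sub_mem_MM s c))

theorem Sh.fix_of_mul (hb : Bin H V) {t s : H} (ht : Sh V t) (hs : Sh V s) (hne : t ≠ s) {x : V}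
    (h : (t * s) • x = x) : t • x = x ∧ s • x = x := by
  have e : s • x = t • x := by rw [← ht.smul_smul hb (s • x), ← mul_smul t s, h]
  have e2 : t • x - x = 0 := ht.eq_zero hb hs hne (sub_mem_MM t x) (e ▸ sub_mem_MM s x)
  rw [sub_eq_zero] at e2
  exact ⟨e2, e.trans e2⟩

omit [Finite V] [Finite H] [FaithfulSMul H V] in
theorem card_sup_of_disjoint {A B : AddSubgroup V} (h : ∀ x ∈ A, x ∈ B → x = 0) :
    Nat.card (A ⊔ B : AddSubgroup V) = Nat.card A * Nat.card B := by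
  rw [← Nat.card_prod]
  refine (Nat.card_congr (Equiv.ofBijective (fun p : A × B =>
    (⟨p.1.1 + p.2.1, AddSubgroup.add_mem_sup p.1.2 p.2.2⟩ : (A ⊔ B : AddSubgroup V))) ⟨?_, ?_⟩)).symm
  · rintro ⟨a, b⟩ ⟨a', b'⟩ e
    have e' : a.1 + b.1 = a'.1 + b'.1 := congrArg Subtype.val e
    have e1 : a.1 - a'.1 = b'.1 - b.1 := by rw [sub_eq_sub_iff_add_eq_add, e', add_comm]
    have e2 : a.1 - a'.1 = 0 := h _ (sub_mem a.2 a'.2) (e1 ▸ sub_mem b'.2 b.2)
    rw [e2] at e1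
    exact Prod.ext (Subtype.ext (sub_eq_zero.1 e2)) (Subtype.ext (sub_eq_zero.1 e1.symm).symm)
  · rintro ⟨x, hx⟩
    obtain ⟨a, ha, b, hb, rfl⟩ := AddSubgroup.mem_sup.1 hx
    exact ⟨(⟨a, ha⟩, ⟨b, hb⟩), rfl⟩

omit [Finite H] [FaithfulSMul H V] in
theorem card_mul_le_of_disjoint {A B C : AddSubgroup V} (h : ∀ x ∈ A, x ∈ B → x = 0) (hA : A ≤ C) (hB : B ≤ C) :
    Nat.card A * Nat.card B ≤ Nat.card C :=
  (card_sup_of_disjoint h).ge.trans (AddSubgroup.card_le_of_le (sup_le hA hB))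

end CfsgLib.BinAff
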