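import Mathlib
import Cfsg.Agent.Lib.BinAff.Bas

/-! Binary affine groups, part 2: two non-commuting short elements span a plane with a spread. -/

namespace CfsgLib.BinAff

variable {H V : Type*} [Group H] [AddCommGroup V] [DistribMulAction H V]

/-- Two non-commuting short elements. -/
structure NC (V : Type*) [AddCommGroup V] [DistribMulAction H V] (t s : H) : Prop where
  l : Sh V t
  r : Sh V s
  nc : ¬ Commute t s

/-- `V` has exponent two or no element of order two. -/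
def Par (V : Type*) [AddCommGroup V] : Prop := (∀ x : V, x + x = 0) ∨ ∀ x : V, x + x = 0 → x = 0

theorem NC.symm {t s : H} (h : NC V t s) : NC V s t := ⟨h.r, h.l, fun e => h.nc e.symm⟩

theorem NC.ne {t s : H} (h : NC V t s) : t ≠ s := fun e => h.nc (e ▸ Commute.refl t)

theorem smul_mem_of_MM_le {b : H} {U : AddSubgroup V} (h : MM V b ≤ U) {u : V} (hu : u ∈ U) : b • u ∈ U := by
  have := add_mem (h (sub_mem_MM b u)) hu
  rwa [sub_add_cancel] at this

theorem exists_preimage_of_inj [Finite V] {A B : AddSubgroup V} (f : V →+ V) (hf : ∀ a ∈ A, f a ∈ B)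
    (hi : ∀ a ∈ A, f a = 0 → a = 0) (hc : Nat.card B ≤ Nat.card A) {d : V} (hd : d ∈ B) : ∃ a ∈ A, f a = d := by
  let φ : A → B := fun a => ⟨f a.1, hf _ a.2⟩
  have hφ : Function.Injective φ := fun a b e => by
    have e' : f a.1 = f b.1 := congrArg Subtype.val e
    exact Subtype.ext (sub_eq_zero.1 (hi _ (sub_mem a.2 b.2) (by rw [map_sub, e', sub_self])))
  obtain ⟨a, ha⟩ := (hφ.bijective_of_nat_card_le hc).2 ⟨d, hd⟩
  exact ⟨a.1, a.2, congrArg Subtype.val ha⟩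

variable [Finite V] [Finite H] [FaithfulSMul H V]

omit [Finite H] [FaithfulSMul H V] in
theorem NC.zero (hb : Bin H V) {t s : H} (h : NC V t s) {c : V} (h1 : c ∈ MM V t) (h2 : s • c ∈ MM V t) :
    c = 0 := by
  by_contra h0
  exact h.nc (h.l.commute hb h1 h0 h2).symm

omit [Finite H] [FaithfulSMul H V] in
theorem NC.surj (hb : Bin H V) {t s : H} (h : NC V t s) {d : V} (hd : d ∈ MM V s) :
    ∃ c ∈ MM V t, s • c - c = d :=
  exists_preimage_of_inj (dd V s) (fun a _ => sub_mem_MM s a)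
    (fun a ha e => h.zero hb ha (by rw [dd_apply, sub_eq_zero] at e; rwa [e])) (h.r.card_eq h.l).le hd

omit [Finite H] [FaithfulSMul H V] in
theorem NC.card_sup (hb : Bin H V) {t s : H} (h : NC V t s) :
    Nat.card (MM V t ⊔ MM V s : AddSubgroup V) = Nat.card (MM V t) * Nat.card (MM V t) := by
  rw [card_sup_of_disjoint fun x h1 h2 => h.l.eq_zero hb h.r h.ne h1 h2, ← h.l.card_eq h.r]

theorem NC.zero_of_fix (hb : Bin H V) (hp : Par V) {t s : H} (h : NC V t s) {u : V} (hu : u ∈ MM V t ⊔ MM V s)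
    (h1 : t • u = u) (h2 : s • u = u) : u = 0 := by
  obtain ⟨a, ha, b, hb', rfl⟩ := AddSubgroup.mem_sup.1 hu
  have ta := smul_eq_neg (h.l.mul_self hb) ha
  have sb := smul_eq_neg (h.r.mul_self hb) hb'
  rw [smul_add, ta] at h1
  rw [smul_add, sb] at h2
  have tb : t • b = b + a + a := by rw [← sub_eq_zero, ← sub_eq_zero.2 h1]; abel
  have sa : s • a = a + b + b := by rw [← sub_eq_zero, ← sub_eq_zero.2 h2]; abel
  rcases hp with hp | hp
  · have a0 : a = 0 := h.zero hb ha (by rw [sa, add_assoc, hp b, add_zero]; exact ha)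
    have b0 : b = 0 := h.symm.zero hb hb' (by rw [tb, add_assoc, hp a, add_zero]; exact hb')
    rw [a0, b0, add_zero]
  · obtain ⟨k, hk⟩ := hb.transl (a + b + (a + b))
    have e1 := hk a (t * s) (by rw [mul_smul, sa, smul_add, smul_add, ta, tb]; abel)
    have e2 := hk (-a) (s * t) (by rw [mul_smul, smul_neg, ta, neg_neg, sa]; abel)
    rw [smul_neg, e1] at e2
    refine hp _ (hp _ ?_)
    rw [← sub_eq_zero.2 e2.symm]; abel

theorem NC.fpf (hb : Bin H V) (hp : Par V) {t s : H} (h : NC V t s) {u : V} (hu : u ∈ MM V t ⊔ MM V s)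
    (h1 : (t * s) • u = u) : u = 0 :=
  h.zero_of_fix hb hp hu (h.l.fix_of_mul hb h.r h.ne h1).1 (h.l.fix_of_mul hb h.r h.ne h1).2

omit [Finite V] [Finite H] [FaithfulSMul H V] in
theorem mul_sub_mem (t s : H) (v : V) : (t * s) • v - v ∈ MM V t ⊔ MM V s := by
  have e : (t * s) • v - v = (t • s • v - s • v) + (s • v - v) := by rw [mul_smul]; abel
  rw [e]
  exact AddSubgroup.add_mem_sup (sub_mem_MM _ _) (sub_mem_MM _ _)

theorem NC.exists_sub (hb : Bin H V) (hp : Par V) {t s : H} (h : NC V t s) {c : V} (hc : c ∈ MM V t ⊔ MM V s) :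
    ∃ x ∈ MM V t ⊔ MM V s, (t * s) • x - x = c :=
  exists_preimage_of_inj (dd V (t * s)) (fun a _ => mul_sub_mem t s a)
    (fun a ha e => h.fpf hb hp ha (by rwa [dd_apply, sub_eq_zero] at e)) le_rfl hc

theorem NC.decomp (hb : Bin H V) (hp : Par V) {t s : H} (h : NC V t s) (v : V) :
    ∃ u ∈ MM V t ⊔ MM V s, ∃ z : V, t • z = z ∧ s • z = z ∧ v = u + z := by
  obtain ⟨x, hx, e⟩ := h.exists_sub hb hp (mul_sub_mem t s v)
  have : (t * s) • (v - x) = v - x := by rw [smul_sub, sub_eq_iff_eq_add.1 e]; abel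
  exact ⟨x, hx, v - x, (h.l.fix_of_mul hb h.r h.ne this).1, (h.l.fix_of_mul hb h.r h.ne this).2, by abel⟩

theorem NC.transl (hb : Bin H V) (hp : Par V) {t s : H} (h : NC V t s) {y z : V} (hy : y ∈ MM V t ⊔ MM V s)
    (h1 : t • z = z) (h2 : s • z = z) (n : H) (hn : n • y = y + z) : z = 0 :=
  hb.eq_zero_of_transl (t * s) (MM V t ⊔ MM V s)
    (fun y hy => by rw [mul_smul]; exact smul_mem_of_MM_le le_sup_left (smul_mem_of_MM_le le_sup_right hy))
    (fun y hy e => h.fpf hb hp hy e) hy (by rw [mul_smul, h2, h1]) n hn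

theorem NC.eq_one (hb : Bin H V) (hp : Par V) {t s : H} (h : NC V t s) {k : H}
    (h1 : ∀ u ∈ MM V t ⊔ MM V s, k • u = u) (h2 : ∀ z : V, t • z = z → s • z = z → k • z = z) : k = 1 :=
  FaithfulSMul.eq_of_smul_eq_smul (α := V) fun v => by
    obtain ⟨u, hu, z, a1, a2, rfl⟩ := h.decomp hb hp v
    rw [smul_add, h1 u hu, h2 z a1 a2, one_smul]

omit [Finite H] in
/-- In odd characteristic, an involution commuting with a `-1` on a plane is short. -/
theorem sh_of_iota (hp : ∀ x : V, x + x = 0 → x = 0) {t ι τ : H} (ht : Sh V t) {U : AddSubgroup V}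
    (hU : Nat.card U = Nat.card (MM V t) * Nat.card (MM V t)) (h1 : ∀ u ∈ U, ι • u = -u)
    (h2 : ∀ v : V, ∃ u ∈ U, ∃ z : V, ι • z = z ∧ τ • z = z ∧ v = u + z) (hc : Commute τ ι) (hτ : τ * τ = 1)
    (hτ1 : τ ≠ 1) (hne : τ ≠ ι) : Sh V τ ∧ MM V τ ≤ U := by
  have hιι : ι * ι = 1 := FaithfulSMul.eq_of_smul_eq_smul (α := V) fun v => by
    obtain ⟨u, hu, z, a1, -, rfl⟩ := h2 v
    rw [mul_smul, smul_add, h1 u hu, a1, smul_add, smul_neg, h1 u hu, a1, neg_neg, one_smul]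
  have hτU : ∀ u ∈ U, τ • u ∈ U := fun u hu => by
    obtain ⟨u', hu', z, a1, -, e⟩ := h2 (τ • u)
    have e2 : ι • τ • u = -(τ • u) := by rw [← mul_smul, ← hc.eq, mul_smul, h1 u hu, smul_neg]
    rw [e, smul_add, h1 u' hu', a1] at e2
    have : z = 0 := hp z (by rw [← sub_eq_zero.2 e2]; abel)
    rw [e, this, add_zero]; exact hu'
  have hM : MM V τ ≤ U := by
    rintro _ ⟨v, rfl⟩
    obtain ⟨u, hu, z, -, a2, rfl⟩ := h2 v
    rw [dd_apply, smul_add, a2, add_sub_add_right_eq_sub]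
    exact sub_mem (hτU u hu) hu
  have hM' : MM V (τ * ι) ≤ U := by
    rintro _ ⟨v, rfl⟩
    obtain ⟨u, hu, z, a1, a2, rfl⟩ := h2 v
    rw [dd_apply, mul_smul, smul_add, a1, h1 u hu, smul_add, a2, add_sub_add_right_eq_sub]
    exact sub_mem (hτU _ (neg_mem hu)) hu
  have hsq : τ * ι * (τ * ι) = 1 := by
    rw [mul_assoc, ← mul_assoc ι, ← hc.eq, mul_assoc, hιι, mul_one, hτ]
  have hd := card_mul_le_of_disjoint (A := MM V τ) (B := MM V (τ * ι)) (fun c a1 a2 => by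
    have e1 := smul_eq_neg hτ a1
    have e2 := smul_eq_neg hsq a2
    rw [mul_smul, h1 c (hM a1), smul_neg, e1, neg_neg] at e2
    exact hp c (by rw [← sub_eq_zero.2 e2]; abel)) hM hM'
  have hne' : τ * ι ≠ 1 := fun e => hne (by rw [← mul_one τ, ← hιι, ← mul_assoc, e, one_mul])
  have b1 := ht.2 _ hne'
  have b2 : 0 < Nat.card (MM V t) := Nat.card_pos
  refine ⟨ht.of_le hτ1 ?_, hM⟩
  by_contra hlt
  push Not at hlt
  rw [hU] at hd
  nlinarith

theorem NC.exists_iota (hb : Bin H V) (hp : Par V) {t s : H} (h : NC V t s) :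
    ∃ ι : H, (∀ u ∈ MM V t ⊔ MM V s, ι • u = -u) ∧ (∀ z : V, t • z = z → s • z = z → ι • z = z) ∧
      ((∀ x : V, x + x = 0 → x = 0) → ∀ k : H, (∀ z : V, t • z = z → s • z = z → k • z = z) → Commute k ι) := by
  have key : ∀ u ∈ MM V t ⊔ MM V s, ∀ z : V, t • z = z → s • z = z → ∃ k : H, k • (u + z) = -u + z :=
    fun u hu z h1 h2 => by
      obtain ⟨x, -, rfl⟩ := h.exists_sub hb hp hu
      obtain ⟨τ, a1, a2, a3⟩ := hb.inv_swap (t * s) x
      refine ⟨τ, ?_⟩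
      rw [smul_add, a3 z (by rw [mul_smul, h2, h1]), ← a2, smul_eq_neg a1 (sub_mem_MM τ x)]
  obtain ⟨ι, hι⟩ := hb {p | ∃ u ∈ MM V t ⊔ MM V s, ∃ z : V, t • z = z ∧ s • z = z ∧ p = (u + z, -u + z)} (by
    rintro p ⟨u, hu, z, h1, h2, rfl⟩
    exact key u hu z h1 h2) (by
    rintro p ⟨u, hu, z, h1, h2, rfl⟩ q ⟨u', hu', z', h1', h2', rfl⟩
    obtain ⟨k, hk⟩ := key (u - u') (sub_mem hu hu') (z - z') (by rw [smul_sub, h1, h1']) (by rw [smul_sub, h2, h2'])
    exact ⟨k, by convert hk using 2 <;> simp only <;> abel⟩)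
  have i1 : ∀ u ∈ MM V t ⊔ MM V s, ι • u = -u := fun u hu => by
    simpa using hι (u + 0, -u + 0) ⟨u, hu, 0, by simp, by simp, rfl⟩
  have i2 : ∀ z : V, t • z = z → s • z = z → ι • z = z := fun z h1 h2 => by
    simpa using hι (0 + z, -0 + z) ⟨0, zero_mem _, z, h1, h2, rfl⟩
  refine ⟨ι, i1, i2, fun _ k hk => ?_⟩
  have hki : ∀ z : V, t • z = z → s • z = z → k⁻¹ • z = z := fun z h1 h2 => by rw [inv_smul_eq_iff, hk z h1 h2]
  have e : k * ι * k⁻¹ * ι⁻¹ = 1 := by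
    refine h.eq_one hb hp (fun y hy => ?_) fun z h1 h2 => ?_
    · have e1 : ι⁻¹ • y = -y := by rw [inv_smul_eq_iff, smul_neg, i1 y hy, neg_neg]
      obtain ⟨u, hu, z, h1, h2, e2⟩ := h.decomp hb hp (k⁻¹ • -y)
      have e3 : k • u = -y - z := by rw [← hk z h1 h2, eq_sub_iff_add_eq, ← smul_add, ← e2, smul_inv_smul]
      have e4 : (k * ι * k⁻¹ * ι⁻¹) • y = y + (z + z) := by
        rw [mul_smul, mul_smul, mul_smul, e1, e2, smul_add, i1 u hu, i2 z h1 h2, smul_add, smul_neg, e3,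
          hk z h1 h2]; abel
      rw [e4, h.transl hb hp hy (by rw [smul_add, h1]) (by rw [smul_add, h2]) _ e4, add_zero]
    · have e1 : ι⁻¹ • z = z := by rw [inv_smul_eq_iff, i2 z h1 h2]
      rw [mul_smul, mul_smul, mul_smul, e1, hki z h1 h2, i2 z h1 h2, hk z h1 h2]
  rw [mul_inv_eq_one, mul_inv_eq_iff_eq_mul] at e
  exact e

/-- In characteristic two every involution fixing the complement of a plane is short. -/
theorem NC.sh_two (hb : Bin H V) (hp : ∀ x : V, x + x = 0) {t s : H} (h : NC V t s) {τ : H} (hτ : τ * τ = 1)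
    (h1 : τ ≠ 1) (hC : ∀ z : V, t • z = z → s • z = z → τ • z = z) : Sh V τ := by
  have hp' : Par V := Or.inl hp
  have hneg : ∀ x : V, -x = x := fun x => neg_eq_of_add_eq_zero_left (hp x)
  have c1 := card_mul_le_of_disjoint (A := MM V τ) (B := WW V t ⊓ WW V s) (C := WW V τ) (by
    rintro _ ⟨v, rfl⟩ ⟨a1, a2⟩
    obtain ⟨u, hu, z, b1, b2, rfl⟩ := h.decomp hb hp' v
    rw [dd_apply, smul_add, hC z b1 b2, add_sub_add_right_eq_sub] at a1 a2 ⊢
    exact h.transl hb hp' hu (mem_WW.1 a1) (mem_WW.1 a2) τ (by abel))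
    (fun c hc => mem_WW.2 (by rw [smul_eq_neg hτ hc, hneg]))
    (fun z hz => mem_WW.2 (hC z (mem_WW.1 hz.1) (mem_WW.1 hz.2)))
  have c2 := card_MM_mul (V := V) τ
  have c4 : Nat.card V ≤ Nat.card (MM V t ⊔ MM V s : AddSubgroup V) * Nat.card (WW V t ⊓ WW V s : AddSubgroup V) := by
    rw [← card_sup_of_disjoint (B := WW V t ⊓ WW V s) fun u hu hz =>
      h.zero_of_fix hb hp' hu (mem_WW.1 hz.1) (mem_WW.1 hz.2), ← AddSubgroup.card_top (G := V)]
    refine AddSubgroup.card_le_of_le fun v _ => ?_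
    obtain ⟨u, hu, z, b1, b2, rfl⟩ := h.decomp hb hp' v
    exact AddSubgroup.add_mem_sup hu ⟨mem_WW.2 b1, mem_WW.2 b2⟩
  rw [h.card_sup hb] at c4
  refine h.l.of_le h1 ?_
  have b2 : 0 < Nat.card (WW V t ⊓ WW V s : AddSubgroup V) := Nat.card_pos
  by_contra hlt
  push Not at hlt
  have c5 : Nat.card (MM V τ) * (Nat.card (MM V τ) * Nat.card (WW V t ⊓ WW V s : AddSubgroup V)) ≤
    Nat.card (MM V τ) * Nat.card (WW V τ) := Nat.mul_le_mul_left _ c1
  have c6 : Nat.card (MM V t) * Nat.card (MM V t) < Nat.card (MM V τ) * Nat.card (MM V τ) :=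
    Nat.mul_self_lt_mul_self hlt
  nlinarith

/-- The spread of a plane. -/
theorem NC.spread (hb : Bin H V) (hp : Par V) {t s : H} (h : NC V t s) {c : V} (hc : c ∈ MM V t ⊔ MM V s)
    (h0 : c ≠ 0) : ∃ r : H, Sh V r ∧ c ∈ MM V r ∧ MM V r ≤ MM V t ⊔ MM V s ∧
      ∀ z : V, t • z = z → s • z = z → r • z = z := by
  have pre : ∀ c ∈ MM V t ⊔ MM V s, c ≠ 0 → ∃ x ∈ MM V t ⊔ MM V s, ∃ τ : H, τ * τ = 1 ∧ τ ≠ 1 ∧ x ≠ 0 ∧
      τ • x = (t * s) • x ∧ c ∈ MM V τ ∧ ∀ z : V, t • z = z → s • z = z → τ • z = z := fun c hc h0 => by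
    obtain ⟨x, hx, rfl⟩ := h.exists_sub hb hp hc
    obtain ⟨τ, a1, a2, a3⟩ := hb.inv_swap (t * s) x
    refine ⟨x, hx, τ, a1, fun e => h0 (by rw [← a2, e, one_smul, sub_self]), fun e => h0 (by simp [e]), a2,
      a2 ▸ sub_mem_MM τ x, fun z h1 h2 => a3 z (by rw [mul_smul, h2, h1])⟩
  obtain ⟨x, hx, τ, a1, a2, x0, a3, a4, a5⟩ := pre c hc h0
  rcases id hp with hp2 | hp2
  · refine ⟨τ, h.sh_two hb hp2 a1 a2 a5, a4, ?_, a5⟩
    obtain ⟨-, -, r, b1, b2, -, -, b4, b5⟩ := pre x hx x0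
    have hr := h.sh_two hb hp2 b1 b2 b5
    have kx : (τ * (t * s)) • x = x := by rw [mul_smul, ← a3, ← mul_smul, a1, one_smul]
    have kC : ∀ z : V, t • z = z → s • z = z → (τ * (t * s)) • z = z := fun z h1 h2 => by
      rw [mul_smul, mul_smul, h2, h1, a5 z h1 h2]
    have kW : ∀ y : V, r • y = y → (τ * (t * s)) • y = y := fun y hy => by
      obtain ⟨σ, d1, d2, d3⟩ := hb.inv_swap (τ * (t * s)) y
      rw [← d2]
      by_cases e1 : σ = 1
      · rw [e1, one_smul]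
      by_cases e2 : σ = r
      · rw [e2, hy]
      have hσC : ∀ z : V, t • z = z → s • z = z → σ • z = z := fun z h1 h2 => d3 z (kC z h1 h2)
      have hcm : Commute σ r := hr.commute hb b4 x0 (by rw [d3 x kx]; exact b4)
      have hσ := h.sh_two hb hp2 d1 e1 hσC
      have hσr : Sh V (σ * r) := h.sh_two hb hp2
        (by rw [mul_assoc, ← mul_assoc r, ← hcm.eq, mul_assoc, b1, mul_one, d1])
        (fun e => e2 (by rw [← mul_one σ, ← b1, ← mul_assoc, e, one_mul]))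
        fun z h1 h2 => by rw [mul_smul, b5 z h1 h2, hσC z h1 h2]
      refine sub_eq_zero.1 (hσ.eq_zero hb hσr (fun e => b2 (by simpa using e)) (sub_mem_MM σ y) ?_)
      have := sub_mem_MM (σ * r) y
      rwa [mul_smul, hy] at this
    have ksq : τ * (t * s) * (τ * (t * s)) = 1 := by
      by_cases e : τ * (t * s) = 1
      · rw [e, mul_one]
      · exact (hr.of_le e (card_MM_le_of_fix kW)).mul_self hb
    have hτU : ∀ u ∈ MM V t ⊔ MM V s, τ • u ∈ MM V t ⊔ MM V s := fun u hu => by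
      obtain ⟨y, -, rfl⟩ := h.exists_sub hb hp hu
      have e : τ • y = (t * s) • τ • (t * s) • y := by
        have : τ = (t * s) * τ * (t * s) := by
          calc τ = τ * (τ * (t * s) * (τ * (t * s))) := by rw [ksq, mul_one]
            _ = (τ * τ) * ((t * s) * τ * (t * s)) := by group
            _ = _ := by rw [a1, one_mul]
        rw [← mul_smul, ← mul_smul, ← this]
      rw [smul_sub, e, ← neg_sub]
      exact neg_mem (mul_sub_mem t s _)
    rintro _ ⟨v, rfl⟩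
    obtain ⟨u, hu, z, e1, e2, rfl⟩ := h.decomp hb hp v
    rw [dd_apply, smul_add, a5 z e1 e2, add_sub_add_right_eq_sub]
    exact sub_mem (hτU u hu) hu
  · obtain ⟨ι, i1, i2, i3⟩ := h.exists_iota hb hp
    have hne : τ ≠ ι := fun e => by
      have e1 : (t * s) • x = -x := by rw [← a3, e, i1 x hx]
      have e2 : (t * (s * t * s⁻¹)) • x = x := by
        rw [h.r.inv_eq hb, show t * (s * t * s) = (t * s) * (t * s) by group, mul_smul, e1, smul_neg, e1, neg_neg]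
      have e3 := (h.l.fix_of_mul hb (h.l.conj s) (fun e => h.nc (by
        rw [eq_mul_inv_iff_mul_eq] at e; exact e)) e2).1
      have e4 : s • x = -x := by rw [← h.l.smul_smul hb (s • x), ← mul_smul t s, e1, smul_neg, e3]
      have e5 : x + x ∈ MM V s := by
        have := neg_mem (sub_mem_MM s x)
        rwa [e4, show -(-x - x) = x + x by abel] at this
      exact x0 (hp2 x (h.symm.zero hb e5 (by rw [smul_add, e3]; exact e5)))
    obtain ⟨b1, b2⟩ := sh_of_iota hp2 h.l (h.card_sup hb) i1 (fun v => by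
      obtain ⟨u, hu, z, e1, e2, rfl⟩ := h.decomp hb hp v
      exact ⟨u, hu, z, i2 z e1 e2, a5 z e1 e2, rfl⟩) (i3 hp2 τ a5) a1 a2 hne
    exact ⟨τ, b1, a4, b2, a5⟩

theorem NC.fix_of_le (hb : Bin H V) (hp : Par V) {t s r : H} (h : NC V t s) (hr : Sh V r) {c : V} (h1 : c ∈ MM V r)
    (h0 : c ≠ 0) (hc : c ∈ MM V t ⊔ MM V s) :
    MM V r ≤ MM V t ⊔ MM V s ∧ ∀ z : V, t • z = z → s • z = z → r • z = z := by
  obtain ⟨r', a1, a2, a3⟩ := h.spread hb hp hc h0
  rw [hr.eq_of_mem hb a1 h1 a2 h0]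
  exact a3

theorem NC.partner (hb : Bin H V) (hp : Par V) {t s r : H} (h : NC V t s) (hr : Sh V r)
    (hle : MM V r ≤ MM V t ⊔ MM V s) : NC V r t ∨ NC V r s := by
  by_contra hn
  push Not at hn
  have c1 : Commute r t := by by_contra e; exact hn.1 ⟨hr, h.l, e⟩
  have c2 : Commute r s := by by_contra e; exact hn.2 ⟨hr, h.r, e⟩
  obtain ⟨c, a1, a0⟩ := exists_ne_zero_mem (V := V) hr.1
  refine hr.1 (h.eq_one hb hp (fun u hu => ?_) (h.fix_of_le hb hp hr a1 a0 (hle a1)).2)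
  obtain ⟨a, ha, b, hb', rfl⟩ := AddSubgroup.mem_sup.1 hu
  rw [smul_add, h.l.fix_of_commute hb hr (fun e => h.nc (e ▸ c2)) c1 ha,
    h.r.fix_of_commute hb hr (fun e => h.nc (e ▸ c1).symm) c2 hb']

omit [Finite H] [FaithfulSMul H V] in
theorem NC.sup_eq (hb : Bin H V) {t s r r' : H} (h : NC V t s) (hr : Sh V r) (hr' : Sh V r') (hne : r ≠ r')
    (h1 : MM V r ≤ MM V t ⊔ MM V s) (h2 : MM V r' ≤ MM V t ⊔ MM V s) : MM V r ⊔ MM V r' = MM V t ⊔ MM V s := by
  refine AddSubgroup.eq_of_le_of_card_ge (sup_le h1 h2) (le_of_eq ?_)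
  rw [h.card_sup hb, card_sup_of_disjoint fun x a1 a2 => hr.eq_zero hb hr' hne a1 a2, hr.card_eq h.l, hr'.card_eq h.l]

end CfsgLib.BinAff
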