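import Mathlib
import Cfsg.Agent.Lib.BinAff.Plane

/-! Binary affine groups, part 3: a short element outside a plane centralises the plane. -/

namespace CfsgLib.BinAff

variable {H V : Type*} [Group H] [AddCommGroup V] [DistribMulAction H V]

theorem card_eq_map_mul (f : V →+ V) (T : AddSubgroup V) :
    Nat.card T = Nat.card (T.map f) * Nat.card (T ⊓ f.ker : AddSubgroup V) := by
  rw [AddSubgroup.card_eq_card_quotient_mul_card_addSubgroup (f.comp T.subtype).ker,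
    Nat.card_congr (QuotientAddGroup.quotientKerEquivRange (f.comp T.subtype)).toEquiv,
    AddMonoidHom.range_comp, AddSubgroup.range_subtype]
  congr 1
  exact Nat.card_congr ⟨fun x => ⟨x.1.1, x.1.2, x.2⟩, fun x => ⟨⟨x.1, x.2.1⟩, x.2.2⟩, fun _ => rfl, fun _ => rfl⟩

theorem arith_caseB {Q k z : ℕ} (hQ : 2 ≤ Q) (h1 : 1 ≤ z) (h2 : z ≤ Q) (h : (Q * Q + 1) * k + z = Q * Q * Q) :
    False := by
  rcases lt_or_ge k Q with hk | hk
  · have : (Q * Q + 1) * (k + 1) ≤ (Q * Q + 1) * Q := Nat.mul_le_mul_left _ hk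
    nlinarith
  · have : (Q * Q + 1) * Q ≤ (Q * Q + 1) * k := Nat.mul_le_mul_left _ hk
    nlinarith

theorem commute_of_conj {K : Type*} [Group K] {g a b : K} (h : Commute (g * a * g⁻¹) (g * b * g⁻¹)) : Commute a b := by
  simpa [mul_assoc] using h.map (MulAut.conj g⁻¹)

variable [Finite V] [Finite H] [FaithfulSMul H V]

theorem Sh.fix_symm (hb : Bin H V) (hp : Par V) {r b : H} (hr : Sh V r) (hb' : Sh V b) {c v : V} (h1 : c ∈ MM V r)
    (h0 : c ≠ 0) (h2 : b • c = c) (hv : v ∈ MM V b) : r • v = v := by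
  have hc : Commute b r := hr.commute hb h1 h0 (by rwa [h2])
  by_cases e : b = r
  · subst e
    rcases hp with hp | hp
    · rw [smul_eq_neg (hr.mul_self hb) hv]
      exact neg_eq_of_add_eq_zero_left (hp v)
    · rw [smul_eq_neg (hr.mul_self hb) h1] at h2
      exact absurd (hp c (by rw [← sub_eq_zero.2 h2.symm]; abel)) h0
  · exact hb'.fix_of_commute hb hr e hc.symm hv

open Classical in
/-- The orbit count: inside `T`, the class of a vector of a good short element has `Q² + 1` members. -/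
theorem orbit_count (hb : Bin H V) (hp : Par V) [Fintype V] {T : AddSubgroup V} {b b' : H} (h : NC V b b')
    (h1 : MM V b ≤ T) (h2 : MM V b' ≤ T)
    (hT : Nat.card T = Nat.card (MM V b) * Nat.card (MM V b) * Nat.card (MM V b)) {v : V} (hv : v ∈ MM V b)
    (hv0 : v ≠ 0) (P : H → Prop) (hP : ∀ r, P r → Sh V r ∧ MM V r ≤ T)
    (hZ : ∀ c ∈ T, (∃ r, P r ∧ c ∈ MM V r) ∨ (b • c = c ∧ b' • c = c)) :
    (Finset.univ.filter fun x => x ∈ T ∧ ∃ g : H, g • v = x).card = Nat.card (MM V b) * Nat.card (MM V b) + 1 ∧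
      ∀ x ∈ T, ∀ g : H, g • v = x → x = v ∨ ∃ r, P r ∧ x = r • v := by
  set Q := Nat.card (MM V b) with hQ
  have hQ2 : 2 ≤ Q := two_le_card_MM h.l.1
  have key : ∀ x ∈ T, ∀ g : H, g • v = x → x ≠ v → ∃ r, P r ∧ x - v ∈ MM V r ∧ x = r • v := fun x hx g hg hne => by
    rcases hZ (x - v) (sub_mem hx (h1 hv)) with ⟨r, a1, a2⟩ | ⟨a1, a2⟩
    · subst hg
      exact ⟨r, a1, a2, ((hP r a1).1.key hb a2 hne).1⟩
    · exact absurd (sub_eq_zero.1 (h.transl hb hp (AddSubgroup.mem_sup_left hv) a1 a2 g (by rw [hg]; abel))) hne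
  refine ⟨?_, fun x hx g hg => ?_⟩
  swap
  · by_cases e : x = v
    · exact Or.inl e
    · obtain ⟨r, a1, -, a3⟩ := key x hx g hg e
      exact Or.inr ⟨r, a1, a3⟩
  set O := Finset.univ.filter fun x => x ∈ T ∧ ∃ g : H, g • v = x with hO
  set A := Finset.univ.filter fun c => c ∈ T ∧ b • c ≠ c with hA
  have hvO : v ∈ O := by simpa [hO] using ⟨h1 hv, 1, one_smul _ _⟩
  let Φ : V → V := fun c => if hc : ∃ r : H, Sh V r ∧ c ∈ MM V r then hc.choose • v else 0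
  have hΦ : ∀ c, c ≠ 0 → ∀ r : H, Sh V r → c ∈ MM V r → Φ c = r • v := fun c h0 r a1 a2 => by
    have hc : ∃ r : H, Sh V r ∧ c ∈ MM V r := ⟨r, a1, a2⟩
    simp only [Φ, dif_pos hc]
    rw [hc.choose_spec.1.eq_of_mem hb a1 hc.choose_spec.2 a2 h0]
  have hAr : ∀ c ∈ A, c ≠ 0 ∧ ∃ r, P r ∧ c ∈ MM V r ∧ r • v ≠ v := fun c hc => by
    obtain ⟨a1, a2⟩ : c ∈ T ∧ b • c ≠ c := by simpa [hA] using hc
    refine ⟨fun e => a2 (by simp [e]), ?_⟩
    rcases hZ c a1 with ⟨r, a3, a4⟩ | a3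
    · exact ⟨r, a3, a4, fun e => a2 (h.l.fix_symm hb hp (hP r a3).1 hv hv0 e a4)⟩
    · exact absurd a3.1 a2
  have c1 : A.card = ∑ x ∈ O.erase v, (A.filter fun c => Φ c = x).card := by
    refine Finset.card_eq_sum_card_fiberwise fun c hc => ?_
    obtain ⟨h0, r, a1, a2, a3⟩ := hAr c hc
    rw [hΦ c h0 r (hP r a1).1 a2]
    exact Finset.mem_coe.2 (Finset.mem_erase.2 ⟨a3, Finset.mem_filter.2 ⟨Finset.mem_univ _,
      smul_mem_of_MM_le (hP r a1).2 (h1 hv), r, rfl⟩⟩)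
  have c2 : ∀ x ∈ O.erase v, (A.filter fun c => Φ c = x).card = Q - 1 := fun x hx => by
    obtain ⟨hne, hxT, g, hg⟩ : x ≠ v ∧ x ∈ T ∧ ∃ g : H, g • v = x := by simpa [hO] using hx
    obtain ⟨r, a1, a2, a3⟩ := key x hxT g hg hne
    have hr := (hP r a1).1
    have e : (A.filter fun c => Φ c = x) = (Finset.univ.filter fun c => c ∈ MM V r).erase 0 := by
      ext c
      simp only [Finset.mem_filter, Finset.mem_erase, Finset.mem_univ, true_and]
      constructor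
      · rintro ⟨hc, e⟩
        obtain ⟨h0, r', b1, b2, -⟩ := hAr c hc
        rw [hΦ c h0 r' (hP r' b1).1 b2] at e
        rw [hr.eq_of_mem hb (hP r' b1).1 a2 (e ▸ sub_mem_MM r' v) (sub_ne_zero.2 hne)]
        exact ⟨h0, b2⟩
      · rintro ⟨h0, hc⟩
        refine ⟨?_, by rw [hΦ c h0 r hr hc, a3]⟩
        simp only [hA, Finset.mem_filter, Finset.mem_univ, true_and]
        exact ⟨(hP r a1).2 hc, fun e => hne (a3.trans (hr.fix_symm hb hp h.l hc h0 e hv))⟩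
    rw [e, Finset.card_erase_of_mem (by simp), hQ, h.l.card_eq hr, Nat.card_eq_fintype_card, Fintype.card_subtype]
  rw [Finset.sum_congr rfl c2, Finset.sum_const, Finset.card_erase_of_mem hvO, smul_eq_mul] at c1
  have c3 : T.map (dd V b) = MM V b := by
    refine le_antisymm ?_ fun d hd => ?_
    · rintro _ ⟨x, -, rfl⟩
      exact sub_mem_MM b x
    · obtain ⟨c, a1, a2⟩ := h.symm.surj hb hd
      exact ⟨c, h2 a1, a2⟩
  have c4 := card_eq_map_mul (dd V b) T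
  rw [c3, hT, ← hQ, mul_comm (Q * Q) Q] at c4
  have c5 : Q * Q = Nat.card (T ⊓ (dd V b).ker : AddSubgroup V) := Nat.eq_of_mul_eq_mul_left (by omega) c4
  have c6 : A.card + Q * Q = Q * Q * Q := by
    rw [← hT, c5, Nat.card_eq_fintype_card, Nat.card_eq_fintype_card, Fintype.card_subtype, Fintype.card_subtype,
      ← Finset.card_union_of_disjoint]
    · congr 1
      ext c
      simp only [hA, Finset.mem_union, Finset.mem_filter, Finset.mem_univ, true_and, AddSubgroup.mem_inf,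
        AddMonoidHom.mem_ker, dd_apply, sub_eq_zero]
      tauto
    · rw [Finset.disjoint_left]
      intro c
      simp only [hA, Finset.mem_filter, Finset.mem_univ, true_and, AddSubgroup.mem_inf,
        AddMonoidHom.mem_ker, dd_apply, sub_eq_zero]
      tauto
  have c7 : 1 ≤ O.card := Finset.card_pos.2 ⟨v, hvO⟩
  obtain ⟨m, hm⟩ := Nat.exists_eq_add_of_le c7
  obtain ⟨q, hq⟩ := Nat.exists_eq_add_of_le (show 1 ≤ Q by omega)
  rw [hm, hq, Nat.add_sub_cancel_left, Nat.add_sub_cancel_left] at c1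
  rw [c1, hq] at c6
  have : m * q = (1 + q) * (1 + q) * q := by nlinarith
  rw [hm, Nat.eq_of_mul_eq_mul_right (by omega) this, ← hq, add_comm]

theorem NC.caseB_aux (hb : Bin H V) (hp : Par V) {t s a r0 : H} (h : NC V t s) (ha : Sh V a)
    (hout : ¬ MM V a ≤ MM V t ⊔ MM V s) (hr0 : Sh V r0) (hr0U : MM V r0 ≤ MM V t ⊔ MM V s) (ht : t ≠ r0)
    (hs : s ≠ r0) (hnc : ∀ r, Sh V r → MM V r ≤ MM V t ⊔ MM V s → r ≠ r0 → ¬ Commute r a) : False := by
  classical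
  have := Fintype.ofFinite V
  set U := MM V t ⊔ MM V s with hU
  set Q := Nat.card (MM V t) with hQ
  have hQ2 : 2 ≤ Q := two_le_card_MM h.l.1
  have hdis : ∀ x ∈ U, x ∈ MM V a → x = 0 := fun x h1 h2 => by
    by_contra h0
    exact hout (h.fix_of_le hb hp ha h2 h0 h1).1
  set T := U ⊔ MM V a with hT
  have hTc : Nat.card T = Q * Q * Q := by rw [hT, card_sup_of_disjoint hdis, h.card_sup hb, ha.card_eq h.l]
  let P : H → Prop := fun b => MM V b ≤ T ∧ ∃ b', NC V b b' ∧ MM V b' ≤ T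
  let G : V → Prop := fun v => v ≠ 0 ∧ ∃ b, P b ∧ v ∈ MM V b
  have hA : ∀ v ∈ T, v ∉ MM V r0 ⊔ MM V a → G v := fun v hv hn => by
    obtain ⟨u, hu, m, hm, rfl⟩ := AddSubgroup.mem_sup.1 hv
    have hu0 : u ∉ MM V r0 := fun e => hn (AddSubgroup.add_mem_sup e hm)
    obtain ⟨r, a1, a2, a3, -⟩ := h.spread hb hp hu fun e => hu0 (e ▸ zero_mem _)
    have hra : NC V r a := ⟨a1, ha, hnc r a1 a3 fun e => hu0 (e ▸ a2)⟩
    have hv0 : u + m ≠ 0 := fun e => hn (e ▸ zero_mem _)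
    have hle : MM V r ⊔ MM V a ≤ T := sup_le_sup_right a3 _
    obtain ⟨b, b1, b2, b3, -⟩ := hra.spread hb hp (AddSubgroup.add_mem_sup a2 hm) hv0
    refine ⟨hv0, b, ⟨b3.trans hle, ?_⟩, b2⟩
    rcases hra.partner hb hp b1 b3 with e | e
    exacts [⟨r, e, le_sup_left.trans hle⟩, ⟨a, e, le_sup_right.trans hle⟩]
  have hB : ∀ v, G v → ∀ r : H, MM V r ≤ T → G (r • v) := by
    have hcj : ∀ r b : H, MM V r ≤ T → MM V b ≤ T → MM V (r * b * r⁻¹) ≤ T := by
      rintro r b h1 h2 _ ⟨x, rfl⟩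
      have e : dd V (r * b * r⁻¹) x = r • (b • r⁻¹ • x - r⁻¹ • x) := by simp [smul_sub, mul_smul]
      rw [e]
      exact smul_mem_of_MM_le h1 (h2 (sub_mem_MM _ _))
    rintro v ⟨h0, b, ⟨b1, b', b2, b3⟩, b4⟩ r hr
    refine ⟨fun e => h0 ((smul_eq_zero_iff_eq r).1 e), r * b * r⁻¹, ⟨hcj r b hr b1, r * b' * r⁻¹,
      ⟨b2.l.conj r, b2.r.conj r, fun e => b2.nc (commute_of_conj e)⟩, hcj r b' hr b3⟩, smul_mem_MM_conj r b4⟩
  have hB' : ∀ z ∈ T, ¬ G z → ∀ r : H, Sh V r → MM V r ≤ T → r • z ∈ T ∧ ¬ G (r • z) := fun z h1 h2 r a1 a2 =>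
    ⟨smul_mem_of_MM_le a2 h1, fun e => h2 (by simpa [a1.smul_smul hb] using hB _ e r a2)⟩
  have hC0 : ∀ z ∈ T, ¬ G z → ∀ r : H, Sh V r → MM V r ≤ U → r ≠ r0 → r • z = z := fun z h1 h2 r a1 a2 a3 => by
    obtain ⟨b1, b2⟩ := hB' z h1 h2 r a1 (a2.trans le_sup_left)
    have e1 : z ∈ MM V r0 ⊔ MM V a := by by_contra e; exact h2 (hA z h1 e)
    have e2 : r • z ∈ MM V r0 ⊔ MM V a := by by_contra e; exact b2 (hA _ b1 e)
    obtain ⟨x, hx, y, hy, e⟩ := AddSubgroup.mem_sup.1 (sub_mem e2 e1)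
    have y0 : y = 0 := hdis y (by
      rw [eq_sub_of_add_eq' e]; exact sub_mem (a2 (sub_mem_MM r z)) (hr0U hx)) hy
    rw [y0, add_zero] at e
    exact sub_eq_zero.1 (a1.eq_zero hb hr0 a3 (sub_mem_MM r z) (e ▸ hx))
  have hC : ∀ z ∈ T, ¬ G z → t • z = z ∧ s • z = z := fun z h1 h2 =>
    ⟨hC0 z h1 h2 t h.l le_sup_left ht, hC0 z h1 h2 s h.r le_sup_right hs⟩
  have hZc : Nat.card (T ⊓ (WW V t ⊓ WW V s) : AddSubgroup V) ≤ Q := by
    have := card_mul_le_of_disjoint (A := U) (B := T ⊓ (WW V t ⊓ WW V s)) (C := T)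
      (fun u hu hz => h.zero_of_fix hb hp hu (mem_WW.1 hz.2.1) (mem_WW.1 hz.2.2)) le_sup_left inf_le_left
    rw [hTc, h.card_sup hb] at this
    exact Nat.le_of_mul_le_mul_left this (by positivity)
  have hD : ∀ z ∈ T, ¬ G z → ∀ b, P b → b • z = z := by
    rintro z h1 h2 b hP
    obtain ⟨b1, b', b2, -⟩ := id hP
    by_contra hne
    obtain ⟨a1, a2⟩ := hB' z h1 h2 b b2.l b1
    have c1 : Commute t b := b2.l.commute hb (sub_mem_MM b z) (sub_ne_zero.2 hne) (by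
      rw [smul_sub, (hC z h1 h2).1, (hC _ a1 a2).1]; exact sub_mem_MM b z)
    have c2 : Commute s b := b2.l.commute hb (sub_mem_MM b z) (sub_ne_zero.2 hne) (by
      rw [smul_sub, (hC z h1 h2).2, (hC _ a1 a2).2]; exact sub_mem_MM b z)
    have hle : MM V b ≤ T ⊓ (WW V t ⊓ WW V s) := fun c hc => ⟨b1 hc,
      mem_WW.2 (b2.l.fix_of_commute hb h.l (fun e => h.nc (e ▸ c2).symm) c1 hc),
      mem_WW.2 (b2.l.fix_of_commute hb h.r (fun e => h.nc (e ▸ c1)) c2 hc)⟩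
    have e := AddSubgroup.eq_of_le_of_card_ge hle (hZc.trans (h.l.card_eq b2.l).le)
    have hz : z ∈ MM V b := e ▸ ⟨h1, mem_WW.2 (hC z h1 h2).1, mem_WW.2 (hC z h1 h2).2⟩
    exact h2 ⟨fun e => hne (by simp [e]), b, hP, hz⟩
  have hE : ∀ v, G v → (Finset.univ.filter fun x => x ∈ T ∧ ∃ g : H, g • v = x).card = Q * Q + 1 ∧
      ∀ x ∈ T, ∀ g : H, g • v = x → G x := by
    rintro v hv
    obtain ⟨h0, b, hP, b4⟩ := id hv
    obtain ⟨b1, b', b2, b3⟩ := id hP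
    have := orbit_count hb hp b2 b1 b3 (by rw [hTc, b2.l.card_eq h.l]) b4 h0 P
      (fun r hr => ⟨hr.2.choose_spec.1.l, hr.1⟩) fun c hc => by
        by_cases e : G c
        · exact Or.inl e.2
        · exact Or.inr ⟨hD c hc e b hP, hD c hc e b' ⟨b3, b, b2.symm, b1⟩⟩
    rw [b2.l.card_eq h.l] at this
    refine ⟨this.1, fun x hx g hg => ?_⟩
    rcases this.2 x hx g hg with e | ⟨r, a1, e⟩
    · rwa [e]
    · rw [e]; exact hB v hv r a1.1
  have hGT : ∀ v, G v → v ∈ T := fun v ⟨_, b, hP, hv⟩ => hP.1 hv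
  set S := Finset.univ.filter G with hS
  have hdvd : Q * Q + 1 ∣ S.card := by
    rw [Finset.card_eq_sum_card_image (fun x => (Quotient.mk (MulAction.orbitRel H V) x)) S]
    refine Finset.dvd_sum fun q hq => ?_
    obtain ⟨v, hv, rfl⟩ := Finset.mem_image.1 hq
    have hv' : G v := by simpa [hS] using hv
    rw [← (hE v hv').1]
    refine dvd_of_eq (congrArg _ ?_)
    ext x
    simp only [hS, Finset.mem_filter, Finset.mem_univ, true_and, Quotient.eq, MulAction.orbitRel_apply]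
    exact ⟨fun ⟨a1, g, a2⟩ => ⟨(hE v hv').2 x a1 g a2, g, a2⟩, fun ⟨a1, g, a2⟩ => ⟨hGT x a1, g, a2⟩⟩
  set Z := Finset.univ.filter fun x => x ∈ T ∧ ¬ G x with hZ
  have z1 : 1 ≤ Z.card := Finset.card_pos.2 ⟨0, by simp [hZ, G]⟩
  have z2 : Z.card ≤ Q := by
    refine le_trans ?_ hZc
    rw [Nat.card_eq_fintype_card, Fintype.card_subtype]
    refine Finset.card_le_card fun x hx => ?_
    obtain ⟨a1, a2⟩ : x ∈ T ∧ ¬ G x := by simpa only [hZ, Finset.mem_filter, Finset.mem_univ, true_and] using hx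
    simp only [Finset.mem_filter, Finset.mem_univ, true_and]
    exact ⟨a1, mem_WW.2 (hC x a1 a2).1, mem_WW.2 (hC x a1 a2).2⟩
  have z3 : S.card + Z.card = Q * Q * Q := by
    rw [← hTc, Nat.card_eq_fintype_card, Fintype.card_subtype, ← Finset.card_union_of_disjoint]
    · congr 1
      ext c
      simp only [hS, hZ, Finset.mem_union, Finset.mem_filter, Finset.mem_univ, true_and]
      exact ⟨fun e => e.elim (hGT c) (·.1), fun e => (em (G c)).imp id fun e' => ⟨e, e'⟩⟩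
    · rw [Finset.disjoint_left]
      intro c
      simp only [hS, hZ, Finset.mem_filter, Finset.mem_univ, true_and]
      exact fun e e' => e'.2 e
  obtain ⟨k, hk⟩ := hdvd
  exact arith_caseB hQ2 z1 z2 (hk ▸ z3)

theorem NC.caseB (hb : Bin H V) (hp : Par V) {t s a : H} (h : NC V t s) (ha : Sh V a)
    (hout : ¬ MM V a ≤ MM V t ⊔ MM V s) : ∀ u ∈ MM V t ⊔ MM V s, a • u = u := by
  by_contra hn
  obtain ⟨w, hw, w0, aw⟩ : ∃ w ∈ MM V t ⊔ MM V s, w ≠ 0 ∧ a • w = w := by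
    by_contra hw
    push Not at hw
    have c1 := card_eq_map_mul (dd V a) (MM V t ⊔ MM V s)
    have c2 : (MM V t ⊔ MM V s) ⊓ (dd V a).ker = ⊥ := eq_bot_iff.2 fun x hx => by
      by_contra x0
      exact hw x hx.1 x0 (mem_WW.1 hx.2)
    have c3 : Nat.card ((MM V t ⊔ MM V s).map (dd V a)) ≤ Nat.card (MM V a) :=
      AddSubgroup.card_le_of_le (by rintro _ ⟨x, -, rfl⟩; exact sub_mem_MM a x)
    rw [c2, AddSubgroup.card_bot, mul_one, h.card_sup hb] at c1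
    rw [← c1, ha.card_eq h.l] at c3
    have := two_le_card_MM (V := V) h.l.1
    nlinarith
  obtain ⟨r0, a1, a2, a3, -⟩ := h.spread hb hp hw w0
  have hc0 : Commute a r0 := a1.commute hb a2 w0 (by rwa [aw])
  have hnc : ∀ r, Sh V r → MM V r ≤ MM V t ⊔ MM V s → r ≠ r0 → ¬ Commute r a := fun r b1 b2 b3 hc => hn fun u hu => by
    rw [← h.sup_eq hb b1 a1 b3 b2 a3] at hu
    obtain ⟨x, hx, y, hy, rfl⟩ := AddSubgroup.mem_sup.1 hu
    rw [smul_add, b1.fix_of_commute hb ha (fun e => hout (e ▸ b2)) hc.symm hx,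
      a1.fix_of_commute hb ha (fun e => hout (e ▸ a3)) hc0 hy]
  have aux : ∀ {t s : H}, NC V t s → MM V (s * t * s⁻¹) ≤ MM V t ⊔ MM V s ∧ NC V s (s * t * s⁻¹) ∧
      s * t * s⁻¹ ≠ t := fun {t s} h => by
    refine ⟨?_, ⟨h.r, h.l.conj s, fun e => h.nc ?_⟩, fun e => h.nc ?_⟩
    · rintro _ ⟨x, rfl⟩
      have e : dd V (s * t * s⁻¹) x = s • (t • s⁻¹ • x - s⁻¹ • x) := by simp [smul_sub, mul_smul]
      rw [e]
      exact smul_mem_of_MM_le le_sup_right (AddSubgroup.mem_sup_left (sub_mem_MM _ _))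
    · exact (commute_of_conj (g := s) (by simpa using e)).symm
    · rw [mul_inv_eq_iff_eq_mul] at e
      exact e.symm
  by_cases e1 : t = r0
  · obtain ⟨b1, b2, b3⟩ := aux h
    have e := h.sup_eq hb b2.l b2.r b2.ne le_sup_right b1
    exact b2.caseB_aux hb hp ha (e ▸ hout) a1 (e ▸ a3) (e1 ▸ h.ne.symm) (e1 ▸ b3) (e ▸ hnc)
  by_cases e2 : s = r0
  · obtain ⟨b1, b2, b3⟩ := aux h.symm
    rw [sup_comm] at b1
    have e := h.sup_eq hb b2.l b2.r b2.ne le_sup_left b1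
    exact b2.caseB_aux hb hp ha (e ▸ hout) a1 (e ▸ a3) e1 (e2 ▸ b3) (e ▸ hnc)
  exact h.caseB_aux hb hp ha hout a1 a3 e1 e2 hnc

/-- An invariant plane. -/
theorem NC.smul_mem (hb : Bin H V) (hp : Par V) {t s : H} (h : NC V t s) (g : H) {u : V} (hu : u ∈ MM V t ⊔ MM V s) :
    g • u ∈ MM V t ⊔ MM V s := by
  by_contra hx
  obtain ⟨r, r1, r2, r3, -⟩ := h.spread hb hp hu fun e => hx (by simp [e])
  have part : ∀ r : H, Sh V r → MM V r ≤ MM V t ⊔ MM V s → ∃ b, NC V r b ∧ MM V b ≤ MM V t ⊔ MM V s :=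
    fun r a1 a2 => (h.partner hb hp a1 a2).elim (fun e => ⟨t, e, le_sup_left⟩) fun e => ⟨s, e, le_sup_right⟩
  have cent : ∀ a r : H, Sh V a → Sh V r → MM V r ≤ MM V t ⊔ MM V s → ¬ MM V a ≤ MM V t ⊔ MM V s → Commute a r :=
    fun a r a1 a2 a3 a4 => by
      obtain ⟨c, c1, c0⟩ := exists_ne_zero_mem (V := V) a2.1
      exact a2.commute hb c1 c0 (by rwa [h.caseB hb hp a1 a4 c (a3 c1)])
  obtain ⟨b, b1, b2⟩ := part r r1 r3
  have o1 : ¬ MM V (g * r * g⁻¹) ≤ MM V t ⊔ MM V s := fun e => hx (e (smul_mem_MM_conj g r2))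
  have o2 : ¬ MM V (g * b * g⁻¹) ≤ MM V t ⊔ MM V s := fun e => b1.nc
    (commute_of_conj (cent _ _ (r1.conj g) (b1.r.conj g) e o1))
  obtain ⟨y, hy, ey⟩ := b1.symm.surj hb (neg_mem r2)
  have f1 : r • g • y = g • y := (b1.r.conj g).fix_of_commute hb r1 (fun e => o2 (by rw [e]; exact r3))
    (cent _ _ (b1.r.conj g) r1 r3 o2).symm (smul_mem_MM_conj g hy)
  have f2 : r • g • u = g • u := (r1.conj g).fix_of_commute hb r1 (fun e => o1 (by rw [e]; exact r3))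
    (cent _ _ (r1.conj g) r1 r3 o1).symm (smul_mem_MM_conj g r2)
  have f3 := h.caseB hb hp (r1.conj g) o1
  have ry : r • y = y - u := by rw [sub_eq_iff_eq_add.1 ey]; abel
  obtain ⟨k, hk⟩ := hb.transl' (g • u - u)
  have k1 := (hk u g (by abel)).1
  have k2 := (hk (y - g • y) (r * (g * r * g⁻¹)) (by
    rw [mul_smul, smul_sub, f3 y (b2 hy), mul_smul, mul_smul, inv_smul_smul, ry, smul_sub g, smul_sub, smul_sub,
      ry, f1, f2]; abel)).2
  obtain ⟨w, hw, w0, rw'⟩ : ∃ w ∈ MM V t ⊔ MM V s, w ≠ 0 ∧ r • w = w := by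
    by_contra hw
    push Not at hw
    have c1 := card_eq_map_mul (dd V r) (MM V t ⊔ MM V s)
    have c2 : (MM V t ⊔ MM V s) ⊓ (dd V r).ker = ⊥ := eq_bot_iff.2 fun x hx => by
      by_contra x0
      exact hw x hx.1 x0 (mem_WW.1 hx.2)
    have c3 : Nat.card ((MM V t ⊔ MM V s).map (dd V r)) ≤ Nat.card (MM V r) :=
      AddSubgroup.card_le_of_le (by rintro _ ⟨x, -, rfl⟩; exact sub_mem_MM r x)
    rw [c2, AddSubgroup.card_bot, mul_one, h.card_sup hb] at c1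
    rw [← c1, r1.card_eq h.l] at c3
    have := two_le_card_MM (V := V) h.l.1
    nlinarith
  have kw : k • w = w := k2 w (by rw [mul_smul, f3 w hw, rw'])
  obtain ⟨r', s1, s2, s3, -⟩ := h.spread hb hp hw w0
  have kc : Commute k r' := s1.commute hb s2 w0 (by rwa [kw])
  obtain ⟨b', d1, d2⟩ := part r' s1 s3
  have o3 : MM V (k * b' * k⁻¹) ≤ MM V t ⊔ MM V s := by
    by_contra e
    refine d1.nc ?_
    have := (cent _ _ (d1.r.conj k) s1 s3 e).map (MulAut.conj k⁻¹)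
    simp only [MulAut.conj_apply, inv_inv] at this
    rw [show k⁻¹ * r' * k = r' by rw [mul_assoc, ← kc.eq, inv_mul_cancel_left],
      show k⁻¹ * (k * b' * k⁻¹) * k = b' by group] at this
    exact this.symm
  rw [← h.sup_eq hb s1 d1.r d1.ne s3 d2] at hu
  obtain ⟨x, a1, z, a2, rfl⟩ := AddSubgroup.mem_sup.1 hu
  refine hx ?_
  rw [show g • (x + z) = k • (x + z) by rw [k1]; abel, smul_add]
  exact add_mem (s3 (smul_mem_MM_of_commute kc a1)) (o3 (smul_mem_MM_conj k a2))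

end CfsgLib.BinAff
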