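import Mathlib
import Cfsg.Agent.Lib.BinAff.CaseB

/-! Binary affine groups, part 4: the irreducible linear case. -/

namespace CfsgLib.BinAff

variable {H V : Type*} [Group H] [AddCommGroup V] [DistribMulAction H V]

/-- Irreducibility. -/
def Irr (H V : Type*) [Group H] [AddCommGroup V] [DistribMulAction H V] : Prop :=
  ∀ U : AddSubgroup V, (∀ g : H, ∀ u ∈ U, g • u ∈ U) → U = ⊥ ∨ U = ⊤

theorem Irr.par (hi : Irr H V) : Par V := by
  rcases hi (AddMonoidHom.id V + AddMonoidHom.id V).ker (fun g u hu => by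
    have : u + u = 0 := hu
    show g • u + g • u = 0
    rw [← smul_add, this, smul_zero]) with h | h
  · exact Or.inr fun x hx => AddSubgroup.mem_bot.1 (h ▸ (show x ∈ (AddMonoidHom.id V + AddMonoidHom.id V).ker from hx))
  · exact Or.inl fun x => show x ∈ (AddMonoidHom.id V + AddMonoidHom.id V).ker from h ▸ AddSubgroup.mem_top x

theorem exists_half [Finite V] (hp : ∀ x : V, x + x = 0 → x = 0) (v : V) : ∃ w : V, w + w = v :=
  Finite.surjective_of_injective (f := fun w : V => w + w) (fun a b e => sub_eq_zero.1 (hp _ (by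
    have e' : a + a = b + b := e
    rw [← sub_eq_zero.2 e']; abel))) v

variable [Finite V] [Finite H] [FaithfulSMul H V]

omit [Finite V] [FaithfulSMul H V] in
theorem exists_sh {g : H} (hg : g ≠ 1) : ∃ t : H, Sh V t := by
  obtain ⟨t, h1, h2⟩ := Set.exists_min_image {g : H | g ≠ 1} (fun g => Nat.card (MM V g)) (Set.toFinite _) ⟨g, hg⟩
  exact ⟨t, h1, h2⟩

/-- If all short elements commute, the group acts as `±1`. -/
theorem caseA (hb : Bin H V) (hi : Irr H V) (hc : ∀ t s : H, Sh V t → Sh V s → Commute t s) (g : H) :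
    g = 1 ∨ ∀ x : V, g • x = -x := by
  by_cases hg : g = 1
  · exact Or.inl hg
  right
  obtain ⟨t, ht⟩ := exists_sh (V := V) hg
  obtain ⟨c0, c1, c2⟩ := exists_ne_zero_mem (V := V) ht.1
  rcases hi.par with hp | hp
  · exfalso
    let C : AddSubgroup V := ⨅ s : {s : H // Sh V s}, WW V s.1
    have hC : ∀ x, x ∈ C ↔ ∀ s : H, Sh V s → s • x = x := fun x => by
      simp only [C, AddSubgroup.mem_iInf, mem_WW, Subtype.forall]
    rcases hi C (fun g u hu => (hC _).2 fun s hs => by
      have := (hC u).1 hu _ (hs.conj g⁻¹)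
      rw [inv_inv, mul_smul, mul_smul, inv_smul_eq_iff] at this
      exact this) with h | h
    · refine c2 (AddSubgroup.mem_bot.1 (h ▸ (hC c0).2 fun s hs => ?_))
      by_cases e : t = s
      · rw [← e, smul_eq_neg (ht.mul_self hb) c1]
        exact neg_eq_of_add_eq_zero_left (hp c0)
      · exact ht.fix_of_commute hb hs e (hc s t hs ht) c1
    · obtain ⟨x, hx⟩ := exists_smul_ne (V := V) ht.1
      exact hx ((hC x).1 (h ▸ AddSubgroup.mem_top x) t ht)
  by_cases hT : MM V t = ⊤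
  · have hgs : Sh V g := by
      by_contra hn
      obtain ⟨x, hx⟩ := exists_smul_ne (V := V) hg
      have h1 := ht.2 g hg
      rw [hT] at h1
      have h2 : MM V g = ⊤ := AddSubgroup.eq_of_le_of_card_ge le_top h1
      exact hn (ht.of_le hg (by rw [h2, hT]))
    obtain ⟨d, d1, d2⟩ := exists_ne_zero_mem (V := V) hg
    rw [← ht.eq_of_mem hb hgs (hT ▸ AddSubgroup.mem_top d) d1 d2]
    exact fun x => smul_eq_neg (ht.mul_self hb) (hT ▸ AddSubgroup.mem_top x)
  exfalso
  obtain ⟨h0, x, hx, hx'⟩ : ∃ h0 : H, ∃ x ∈ MM V t, h0 • x ∉ MM V t := by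
    by_contra hn
    push Not at hn
    rcases hi _ hn with h | h
    · exact c2 (AddSubgroup.mem_bot.1 (h ▸ c1))
    · exact hT h
  have hr := ht.conj h0
  have hxr := smul_mem_MM_conj h0 hx
  set r := h0 * t * h0⁻¹
  have hne : t ≠ r := fun e => hx' (e ▸ hxr)
  have htr := hc t r ht hr
  have i1 : ∀ u ∈ MM V t ⊔ MM V r, (t * r) • u = -u := fun u hu => by
    obtain ⟨a, ha, b, hb', rfl⟩ := AddSubgroup.mem_sup.1 hu
    rw [mul_smul, smul_add, ht.fix_of_commute hb hr hne htr.symm ha, smul_eq_neg (hr.mul_self hb) hb', smul_add,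
      smul_neg, smul_eq_neg (ht.mul_self hb) ha, hr.fix_of_commute hb ht hne.symm htr hb', neg_add]
  have i0 : t * r * (t * r) = 1 := by
    rw [mul_assoc, ← mul_assoc r, ← htr.eq, mul_assoc, hr.mul_self hb, mul_one, ht.mul_self hb]
  have dec : ∀ v : V, ∃ u ∈ MM V t ⊔ MM V r, ∃ z : V, (t * r) • z = z ∧ v = u + z := fun v => by
    obtain ⟨w, rfl⟩ := exists_half hp v
    refine ⟨-((t * r) • w - w), neg_mem (mul_sub_mem t r w), w + (t * r) • w, ?_, by abel⟩
    rw [smul_add, ← mul_smul, i0, one_smul, add_comm]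
  have hcU : h0 • x - x ∈ MM V t ⊔ MM V r := sub_mem (AddSubgroup.mem_sup_right hxr) (AddSubgroup.mem_sup_left hx)
  obtain ⟨d, hd⟩ := exists_half hp (h0 • x - x)
  have hιd : (t * r) • d = -d := eq_neg_of_add_eq_zero_left (hp _ (by
    rw [add_add_add_comm, ← smul_add, hd, i1 _ hcU, neg_add_cancel]))
  obtain ⟨h, hh⟩ := hb.transl' (h0 • x - x)
  have h1 := (hh x h0 (by abel)).1
  have h2 := (hh (-d) (t * r) (by rw [smul_neg, hιd, ← hd]; abel)).2
  obtain ⟨τ, a1, a2, a3⟩ := hb.inv_swap h x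
  have τx : τ • x = h0 • x := by rw [a2, h1]; abel
  have τz : ∀ z : V, (t * r) • z = z → τ • z = z := fun z hz => a3 z (h2 z hz)
  have ττ : ∀ v : V, τ • τ • v = v := fun v => by rw [← mul_smul, a1, one_smul]
  have cm : Commute τ (t * r) := by
    have key : ∀ y ∈ MM V t ⊔ MM V r, (t * r) • τ • y = -(τ • y) := fun y hy => by
      obtain ⟨u, hu, z, b1, b2⟩ := dec (τ • y)
      have e3 : τ • u = y - z := by rw [← τz z b1, eq_sub_iff_add_eq, ← smul_add, ← b2, ττ]
      have e4 : (τ * (t * r) * τ * (t * r)) • y = y + -(z + z) := by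
        rw [mul_smul, mul_smul, mul_smul, i1 y hy, smul_neg, smul_neg, b2, smul_add, i1 u hu, b1, smul_neg, smul_add,
          smul_neg, e3, τz z b1]; abel
      have e5 := hb.eq_zero_of_transl (t * r) (MM V t ⊔ MM V r) (fun y hy => by rw [i1 y hy]; exact neg_mem hy)
        (fun y hy e => hp y (by rw [i1 y hy] at e; rw [← sub_eq_zero.2 e.symm]; abel)) hy
        (by rw [smul_neg, smul_add, b1]) _ e4
      rw [b2, hp z (neg_eq_zero.1 e5), add_zero, i1 u hu]
    refine FaithfulSMul.eq_of_smul_eq_smul (α := V) fun v => ?_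
    obtain ⟨u, hu, z, b1, rfl⟩ := dec v
    rw [mul_smul τ, mul_smul (t * r), smul_add, smul_add, smul_add, smul_add, b1, τz z b1, b1, i1 u hu, key u hu,
      smul_neg]
  have hτ := (sh_of_iota hp ht (U := MM V t ⊔ MM V r) (by
    rw [card_sup_of_disjoint fun x h1 h2 => ht.eq_zero hb hr hne h1 h2, ← ht.card_eq hr]) i1 (fun v => by
      obtain ⟨u, hu, z, b1, b2⟩ := dec v
      exact ⟨u, hu, z, b1, τz z b1, b2⟩) cm a1 (fun e => hx' (by rwa [← τx, e, one_smul]))
      (fun e => hx' (by rw [← τx, e, i1 x (AddSubgroup.mem_sup_left hx)]; exact neg_mem hx))).1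
  exact hx' (τx ▸ smul_mem_MM_of_commute (hc τ t hτ ht) hx)

end CfsgLib.BinAff
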