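import Mathlib
import Cfsg.Agent.Lib.BinAff.CaseA

/-! Binary affine groups, part 5: the irreducible plane and its field. -/

namespace CfsgLib.BinAff

theorem field_part (E : Type) [Field E] [Finite E] (σ : E ≃+* E) (h1 : ∀ x, σ (σ x) = x) (h2 : σ ≠ 1) :
    ∃ (F : Type) (_ : Field F) (_ : Fintype F) (_ : Algebra F E), Module.finrank F E = 2 ∧
      (∀ φ : E ≃ₐ[F] E, (∀ x, φ x = x) ∨ ∀ x, φ x = σ x) ∧ (∃ φ : E ≃ₐ[F] E, ∀ x, φ x = σ x) ∧
      ∀ a : E, Algebra.norm F a = 1 ↔ a * σ a = 1 := by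
  classical
  let σ' : RingAut E := σ
  have ho : orderOf σ' = 2 := orderOf_eq_prime (by rw [sq]; ext x; exact h1 x) h2
  let G := Subgroup.zpowers σ'
  have : Finite (RingAut E) := Finite.of_injective (fun f : RingAut E => (f : E → E)) DFunLike.coe_injective
  have : Fintype G := Fintype.ofFinite G
  have hG : ∀ g : G, g = 1 ∨ g = ⟨σ', Subgroup.mem_zpowers σ'⟩ := fun ⟨g, hg⟩ => by
    rw [mem_zpowers_iff_mem_range_orderOf, ho] at hg
    obtain ⟨n, hn, rfl⟩ := Finset.mem_image.1 hg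
    have : n < 2 := Finset.mem_range.1 hn
    interval_cases n
    · exact Or.inl (Subtype.ext (pow_zero _))
    · exact Or.inr (Subtype.ext (pow_one _))
  let F := FixedPoints.subfield G E
  let φ0 : E ≃ₐ[F] E := MulSemiringAction.toAlgAut G F E ⟨σ', Subgroup.mem_zpowers σ'⟩
  have hφ0 : ∀ x, φ0 x = σ x := fun x => rfl
  have hall : ∀ φ : E ≃ₐ[F] E, φ = 1 ∨ φ = φ0 := fun φ => by
    obtain ⟨g, rfl⟩ := FixedPoints.toAlgAut_surjective G E φ
    rcases hG g with rfl | rfl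
    · exact Or.inl (map_one _)
    · exact Or.inr rfl
  have hne : (1 : E ≃ₐ[F] E) ≠ φ0 := fun e => h2 (RingEquiv.ext fun x => by rw [← hφ0, ← e]; rfl)
  refine ⟨F, inferInstance, Fintype.ofFinite F, inferInstance, ?_, fun φ => ?_, ⟨φ0, hφ0⟩, fun a => ?_⟩
  · rw [FixedPoints.finrank_eq_card, ← Nat.card_eq_fintype_card, Nat.card_zpowers, ho]
  · rcases hall φ with rfl | rfl
    exacts [Or.inl fun _ => rfl, Or.inr hφ0]
  · have hu : (Finset.univ : Finset (E ≃ₐ[F] E)) = {1, φ0} := by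
      ext φ
      simpa using hall φ
    rw [← (algebraMap F E).injective.eq_iff, map_one, Algebra.norm_eq_prod_automorphisms, hu, Finset.prod_pair hne]
    rfl

theorem exists_small_field (E : Type*) [Field E] [Finite E] :
    ∃ (E' : Type) (_ : Field E') (_ : Finite E'), Nonempty (E' ≃+* E) := by
  have : Small.{0} E := Countable.toSmall _
  exact ⟨Shrink.{0} E, inferInstance, Finite.of_equiv _ (equivShrink E), ⟨Shrink.ringEquiv.{0} E⟩⟩

variable {H V : Type*} [Group H] [AddCommGroup V] [DistribMulAction H V] [Finite V] [Finite H] [FaithfulSMul H V]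

section

variable (hb : Bin H V) (hp : Par V) {t s : H} (h : NC V t s) (hU : MM V t ⊔ MM V s = ⊤)
include hb hp h hU

theorem NC.top_zero {z : V} (h1 : t • z = z) (h2 : s • z = z) : z = 0 :=
  h.zero_of_fix hb hp (hU ▸ AddSubgroup.mem_top z) h1 h2

theorem NC.top_spread {c : V} (h0 : c ≠ 0) : ∃ r : H, Sh V r ∧ c ∈ MM V r := by
  obtain ⟨r, a1, a2, -⟩ := h.spread hb hp (hU ▸ AddSubgroup.mem_top c) h0
  exact ⟨r, a1, a2⟩

theorem NC.top_iota : ∃ ι : H, ∀ v : V, ι • v = -v := by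
  obtain ⟨ι, a1, -⟩ := h.exists_iota hb hp
  exact ⟨ι, fun v => a1 v (hU ▸ AddSubgroup.mem_top v)⟩

theorem NC.top_sh {τ : H} (h1 : τ * τ = 1) (h2 : τ ≠ 1) {x : V} (hx : x ≠ 0) (h3 : τ • x = x) : Sh V τ := by
  rcases id hp with hp2 | hp2
  · exact h.sh_two hb hp2 h1 h2 fun z a1 a2 => by rw [h.top_zero hb hp hU a1 a2, smul_zero]
  · obtain ⟨ι, hι⟩ := h.top_iota hb hp hU
    refine (sh_of_iota hp2 h.l (h.card_sup hb) (ι := ι) (fun u _ => hι u)
      (fun v => ⟨v, hU ▸ AddSubgroup.mem_top v, 0, by simp⟩)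
      (FaithfulSMul.eq_of_smul_eq_smul (α := V) fun v => by simp [mul_smul, hι]) h1 h2 fun e => hx (hp2 x ?_)).1
    rw [e, hι] at h3
    rw [← sub_eq_zero.2 h3.symm]; abel

theorem NC.top_mul_iota {ι : H} (hι : ∀ v : V, ι • v = -v) {τ : H} (hτ : Sh V τ) :
    Sh V (τ * ι) ∧ WW V τ = MM V (τ * ι) := by
  have hcen : ∀ g : H, Commute g ι := fun g => FaithfulSMul.eq_of_smul_eq_smul (α := V) fun v => by
    simp [mul_smul, hι]
  have hιι : ι * ι = 1 := FaithfulSMul.eq_of_smul_eq_smul (α := V) fun v => by simp [mul_smul, hι]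
  have hsq : τ * ι * (τ * ι) = 1 := by
    rw [mul_assoc, ← mul_assoc ι, ← (hcen τ).eq, mul_assoc, hιι, mul_one, hτ.mul_self hb]
  obtain ⟨c, c1, c0⟩ := exists_ne_zero_mem (V := V) hτ.1
  have hs : Sh V (τ * ι) := h.top_sh hb hp hU hsq (fun e => by
    have e' : τ = ι := by rw [← mul_one τ, ← hιι, ← mul_assoc, e, one_mul]
    rcases h.partner hb hp hτ (hU ▸ le_top) with a | a
    exacts [a.nc (e' ▸ (hcen t).symm), a.nc (e' ▸ (hcen s).symm)]) c0 (by
      rw [mul_smul, hι, smul_neg, smul_eq_neg (hτ.mul_self hb) c1, neg_neg])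
  refine ⟨hs, (AddSubgroup.eq_of_le_of_card_ge (fun d hd => mem_WW.2 ?_) ?_).symm⟩
  · have := smul_eq_neg hsq hd
    rwa [mul_smul, hι, smul_neg, neg_inj] at this
  · have a1 := card_MM_mul (V := V) τ
    have a2 := h.card_sup hb
    rw [hU, AddSubgroup.card_top, ← a1, hτ.card_eq h.l] at a2
    rw [hs.card_eq h.l]
    exact (Nat.eq_of_mul_eq_mul_left Nat.card_pos a2).le

theorem NC.top_fix_unique {r r' : H} (h1 : Sh V r) (h2 : Sh V r') {x : V} (hx : x ≠ 0) (a1 : r • x = x)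
    (a2 : r' • x = x) : r = r' := by
  obtain ⟨ι, hι⟩ := h.top_iota hb hp hU
  obtain ⟨b1, b2⟩ := h.top_mul_iota hb hp hU hι h1
  obtain ⟨d1, d2⟩ := h.top_mul_iota hb hp hU hι h2
  exact mul_right_cancel (b1.eq_of_mem hb d1 (b2 ▸ mem_WW.2 a1) (d2 ▸ mem_WW.2 a2) hx)

theorem NC.top_exists_fix {x : V} (hx : x ≠ 0) : ∃ ρ : H, Sh V ρ ∧ ρ • x = x := by
  obtain ⟨ι, hι⟩ := h.top_iota hb hp hU
  obtain ⟨r, a1, a2⟩ := h.top_spread hb hp hU hx
  exact ⟨r * ι, (h.top_mul_iota hb hp hU hι a1).1, by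
    rw [mul_smul, hι, smul_neg, smul_eq_neg (a1.mul_self hb) a2, neg_neg]⟩

theorem NC.top_exists_vec {ρ : H} (hρ : Sh V ρ) : ∃ x : V, x ≠ 0 ∧ ρ • x = x := by
  obtain ⟨ι, hι⟩ := h.top_iota hb hp hU
  obtain ⟨b1, b2⟩ := h.top_mul_iota hb hp hU hι hρ
  obtain ⟨c, c1, c0⟩ := exists_ne_zero_mem (V := V) b1.1
  exact ⟨c, c0, mem_WW.1 (b2 ▸ c1)⟩

theorem NC.top_stab {ρ g : H} (hρ : Sh V ρ) {x : V} (hx : x ≠ 0) (h1 : ρ • x = x) (h2 : g • x = x) :
    g = 1 ∨ g = ρ := by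
  have key : ∀ y : V, g • y = y ∨ g • y = ρ • y := fun y => by
    obtain ⟨τ, a1, a2, a3⟩ := hb.inv_swap g y
    by_cases e : τ = 1
    · exact Or.inl (by rw [← a2, e, one_smul])
    · exact Or.inr (by rw [← a2, h.top_fix_unique hb hp hU (h.top_sh hb hp hU a1 e hx (a3 x h2)) hρ hx (a3 x h2) h1])
  by_contra hn
  push Not at hn
  obtain ⟨y, hy⟩ := exists_smul_ne (V := V) hn.1
  obtain ⟨z, hz⟩ : ∃ z : V, g • z ≠ ρ • z := by
    by_contra hz
    push Not at hz
    exact hn.2 (FaithfulSMul.eq_of_smul_eq_smul hz)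
  have e1 := (key y).resolve_left hy
  have e2 := (key z).resolve_right hz
  rcases key (y + z) with e | e
  · rw [smul_add, e2] at e
    exact hy (add_right_cancel e)
  · rw [smul_add, smul_add, e1] at e
    exact hz (add_left_cancel e)

theorem NC.top_nsh_mul {r ρ : H} (hr : Sh V r) (hρ : Sh V ρ) : ¬ Sh V (r * ρ) := fun hs => by
  obtain ⟨x, x0, hx⟩ := h.top_exists_vec hb hp hU hs
  by_cases e : r = ρ
  · exact hs.1 (by rw [e, hρ.mul_self hb])
  · obtain ⟨a1, a2⟩ := hr.fix_of_mul hb hρ e hx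
    exact e (h.top_fix_unique hb hp hU hr hρ x0 a1 a2)

theorem NC.top_sh_mul {g ρ : H} (hg : ¬ Sh V g) (hρ : Sh V ρ) : Sh V (g * ρ) := by
  obtain ⟨x, x0, hx⟩ := h.top_exists_vec hb hp hU hρ
  by_cases e : g • x = x
  · rcases h.top_stab hb hp hU hρ x0 hx e with a | a
    · rwa [a, one_mul]
    · exact absurd (a ▸ hρ) hg
  · obtain ⟨r, a1, a2⟩ := h.top_spread hb hp hU (sub_ne_zero.2 e)
    have a3 := (a1.key hb a2 e).1
    rcases h.top_stab hb hp hU (g := r * g) hρ x0 hx (by rw [mul_smul, a3, a1.smul_smul hb]) with a | a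
    · exact absurd (by rw [eq_inv_of_mul_eq_one_right a, a1.inv_eq hb]; exact a1) hg
    · rwa [show g * ρ = r by
        rw [← one_mul g, ← a1.mul_self hb, mul_assoc r, a, mul_assoc, hρ.mul_self hb, mul_one]]

theorem NC.top_conj {g ρ : H} (hg : ¬ Sh V g) (hρ : Sh V ρ) : ρ * g * ρ = g⁻¹ := by
  have := (h.top_sh_mul hb hp hU hg hρ).mul_self hb
  rw [mul_assoc, ← mul_assoc ρ] at this
  exact eq_inv_of_mul_eq_one_right this

omit hp h hU in
theorem top_nsh_inv {g : H} (hg : ¬ Sh V g) : ¬ Sh V g⁻¹ := fun e => hg (by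
  have := e.inv_eq hb
  rw [inv_inv] at this
  rwa [this])

theorem NC.top_nsh_mul_nsh {a b : H} (ha : ¬ Sh V a) (hb' : ¬ Sh V b) : ¬ Sh V (a * b) := by
  have a1 := h.top_sh_mul hb hp hU ha h.l
  have a2 := h.top_sh_mul hb hp hU (top_nsh_inv hb hb') h.l
  have := h.top_nsh_mul hb hp hU a1 a2
  rwa [← a2.inv_eq hb, show a * t * (b⁻¹ * t)⁻¹ = a * b by group] at this

theorem NC.top_comm {a b : H} (ha : ¬ Sh V a) (hb' : ¬ Sh V b) : Commute a b := by
  have a1 := h.top_conj hb hp hU (h.top_nsh_mul_nsh hb hp hU ha hb') h.l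
  have a2 := h.top_conj hb hp hU ha h.l
  have a3 := h.top_conj hb hp hU hb' h.l
  have : t * (a * b) * t = (t * a * t) * (t * b * t) := by
    rw [show (t * a * t) * (t * b * t) = t * a * (t * t) * b * t by group, h.l.mul_self hb]; group
  rw [this, a2, a3, ← mul_inv_rev, inv_inj] at a1
  exact a1.symm

end

theorem NC.plane_field (hb : Bin H V) (hi : Irr H V) {t s : H} (h : NC V t s) :
    ∃ (E : Type) (_ : Field E) (_ : Finite E) (σ : E ≃+* E) (ε : V ≃+ E), (∀ x, σ (σ x) = x) ∧ σ ≠ 1 ∧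
      (∀ g : H, ∃ a, a * σ a = 1 ∧ ((∀ v, ε (g • v) = a * ε v) ∨ ∀ v, ε (g • v) = a * σ (ε v))) ∧
      ∀ a, a * σ a = 1 → (∃ g : H, ∀ v, ε (g • v) = a * ε v) ∧ ∃ g : H, ∀ v, ε (g • v) = a * σ (ε v) := by
  have hp := hi.par
  obtain ⟨c0, c1, c2⟩ := exists_ne_zero_mem (V := V) h.l.1
  have hU : MM V t ⊔ MM V s = ⊤ := (hi _ fun g u hu => h.smul_mem hb hp g hu).resolve_left fun e =>
    c2 (AddSubgroup.mem_bot.1 (e ▸ AddSubgroup.mem_sup_left c1))
  have hN : ∀ Y : AddSubgroup V, (∀ a : H, ¬ Sh V a → ∀ y ∈ Y, a • y ∈ Y) → Y = ⊥ ∨ Y = ⊤ := fun Y hY =>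
    hi Y fun g y hy => by
      by_cases y0 : y = 0
      · simp [y0]
      by_cases e : Sh V g
      · obtain ⟨ρ, a1, a2⟩ := h.top_exists_fix hb hp hU y0
        have := hY _ (h.top_nsh_mul hb hp hU e a1) y hy
        rwa [mul_smul, a2] at this
      · exact hY g e y hy
  let T : H →* AddMonoid.End V := DistribMulAction.toAddMonoidEnd H V
  have hT : ∀ (g : H) (v : V), T g v = g • v := fun _ _ => rfl
  let E := Subring.centralizer {f : AddMonoid.End V | ∃ a : H, ¬ Sh V a ∧ f = T a}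
  have hE : ∀ f : AddMonoid.End V, f ∈ E ↔ ∀ a : H, ¬ Sh V a → T a * f = f * T a := fun f =>
    ⟨fun hf a ha => hf _ ⟨a, ha, rfl⟩, by rintro hf _ ⟨a, ha, rfl⟩; exact hf a ha⟩
  have hEa : ∀ (e : E) (a : H), ¬ Sh V a → ∀ v, a • e.1 v = e.1 (a • v) := fun e a ha v =>
    DFunLike.congr_fun ((hE _).1 e.2 a ha) v
  have hTE : ∀ a : H, ¬ Sh V a → T a ∈ E := fun a ha => (hE _).2 fun b hb' => by
    rw [← map_mul, ← map_mul, (h.top_comm hb hp hU ha hb').eq]
  have inj : ∀ e : E, ∀ v : V, e.1 v = 0 → e = 0 ∨ v = 0 := fun e v hv => by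
    rcases hN (AddMonoidHom.ker e.1) (fun a ha y hy => by
      have : e.1 y = 0 := hy
      show e.1 (a • y) = 0
      rw [← hEa e a ha, this, smul_zero]) with a | a
    · exact Or.inr (AddSubgroup.mem_bot.1 (a ▸ (show v ∈ AddMonoidHom.ker e.1 from hv)))
    · exact Or.inl (Subtype.ext (AddMonoidHom.ext fun x =>
        show x ∈ AddMonoidHom.ker e.1 from a ▸ AddSubgroup.mem_top x))
  have : Nontrivial E := ⟨1, 0, fun e => c2 (DFunLike.congr_fun (congrArg Subtype.val e) c0)⟩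
  have : NoZeroDivisors E := ⟨fun {a b} e => by
    rcases inj a (b.1 c0) (DFunLike.congr_fun (congrArg Subtype.val e) c0) with a1 | a1
    · exact Or.inl a1
    · exact Or.inr ((inj b c0 a1).resolve_right c2)⟩
  have : IsDomain E := NoZeroDivisors.to_isDomain E
  have : Finite (AddMonoid.End V) := Finite.of_injective (fun f : AddMonoid.End V => (f : V → V)) DFunLike.coe_injective
  let _ : Field E := (Finite.isDomain_to_isField E).toField
  obtain ⟨v0, v1, v2⟩ := h.top_exists_vec hb hp hU h.l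
  let ev : E →+ V := ⟨⟨fun e => e.1 v0, rfl⟩, fun _ _ => rfl⟩
  have hev : Function.Bijective ev := by
    refine ⟨(injective_iff_map_eq_zero ev).2 fun e he => (inj e v0 he).resolve_right v1, ?_⟩
    rcases hN ev.range (by
      rintro a ha _ ⟨e, rfl⟩
      exact ⟨⟨T a, hTE a ha⟩ * e, rfl⟩) with a | a
    · exact absurd (AddSubgroup.mem_bot.1 (a ▸ (show v0 ∈ ev.range from ⟨1, rfl⟩))) v1
    · exact AddMonoidHom.range_eq_top.1 a
  let ε : V ≃+ E := (AddEquiv.ofBijective ev hev).symm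
  have hε : ∀ v, (ε v).1 v0 = v := fun v => (AddEquiv.ofBijective ev hev).apply_symm_apply v
  have hε' : ∀ (v : V) (e : E), e.1 v0 = v → ε v = e := fun v e he => hev.1 ((hε v).trans he.symm)
  have tt : T t * T t = 1 := by rw [← map_mul, h.l.mul_self hb, map_one]
  have hσ : ∀ e : E, T t * e.1 * T t ∈ E := fun e => (hE _).2 fun a ha => by
    have a1 : T a * T t = T t * T a⁻¹ := by
      rw [← h.top_conj hb hp hU ha h.l, ← map_mul, ← map_mul, ← mul_assoc, ← mul_assoc, h.l.mul_self hb, one_mul]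
    have a2 : T a⁻¹ * T t = T t * T a := by
      rw [← h.top_conj hb hp hU ha h.l, ← map_mul, ← map_mul, mul_assoc, h.l.mul_self hb, mul_one]
    rw [← mul_assoc, ← mul_assoc, a1, mul_assoc (T t), (hE _).1 e.2 _ (top_nsh_inv hb ha), mul_assoc, mul_assoc, a2,
      mul_assoc, mul_assoc]
  have hσσ : ∀ e : AddMonoid.End V, T t * (T t * e * T t) * T t = e := fun e => by
    rw [← mul_assoc, ← mul_assoc, tt, one_mul, mul_assoc, tt, mul_one]
  let σ : E ≃+* E :=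
    { toFun := fun e => ⟨_, hσ e⟩
      invFun := fun e => ⟨_, hσ e⟩
      left_inv := fun e => Subtype.ext (hσσ e.1)
      right_inv := fun e => Subtype.ext (hσσ e.1)
      map_mul' := fun a b => Subtype.ext (by
        show T t * (a.1 * b.1) * T t = T t * a.1 * T t * (T t * b.1 * T t)
        rw [mul_assoc (T t * a.1), ← mul_assoc (T t) (T t * b.1), ← mul_assoc (T t) (T t), tt, one_mul]
        simp only [mul_assoc])
      map_add' := fun a b => Subtype.ext (by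
        show T t * (a.1 + b.1) * T t = T t * a.1 * T t + T t * b.1 * T t
        rw [mul_add, add_mul]) }
  have s1 : ∀ x, σ (σ x) = x := fun x => Subtype.ext (hσσ x.1)
  have k1 : ∀ (a : H) (ha : ¬ Sh V a) (v : V), ε (a • v) = ⟨T a, hTE a ha⟩ * ε v := fun a ha v =>
    hε' _ _ (by show a • (ε v).1 v0 = _; rw [hε])
  have k2 : ∀ v : V, ε (t • v) = σ (ε v) := fun v =>
    hε' _ _ (by show t • (ε v).1 (t • v0) = _; rw [v2, hε])
  have k3 : ∀ (a : H) (ha : ¬ Sh V a), (⟨T a, hTE a ha⟩ : E) * σ ⟨T a, hTE a ha⟩ = 1 := fun a ha => Subtype.ext (by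
    show T a * (T t * T a * T t) = 1
    rw [← map_mul, ← map_mul, ← map_mul, h.top_conj hb hp hU ha h.l, mul_inv_cancel, map_one])
  have s2 : σ ≠ 1 := fun e => by
    obtain ⟨x, hx⟩ := exists_smul_ne (V := V) h.l.1
    exact hx (ε.injective (by rw [k2, e]; rfl))
  have k4 : ∀ r : H, Sh V r → ∃ (a : H) (ha : ¬ Sh V a), ∀ v, ε (r • v) = ⟨T a, hTE a ha⟩ * σ (ε v) := fun r hr =>
    ⟨r * t, h.top_nsh_mul hb hp hU hr h.l, fun v => by
      rw [← k2, ← k1 _ (h.top_nsh_mul hb hp hU hr h.l), mul_smul, h.l.smul_smul hb]⟩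
  have k5 : ∀ g : H, ∃ a, a * σ a = 1 ∧ ((∀ v, ε (g • v) = a * ε v) ∨ ∀ v, ε (g • v) = a * σ (ε v)) := fun g => by
    by_cases e : Sh V g
    · obtain ⟨a, ha, a1⟩ := k4 g e
      exact ⟨_, k3 a ha, Or.inr a1⟩
    · exact ⟨_, k3 g e, Or.inl (k1 g e)⟩
  have k6 : ∀ a, a * σ a = 1 → (∃ g : H, ∀ v, ε (g • v) = a * ε v) ∧ ∃ g : H, ∀ v, ε (g • v) = a * σ (ε v) :=
    fun a ha => by
      obtain ⟨x, hx⟩ : ∃ x : E, a * σ x - x ≠ 0 := by
        by_contra hn
        push Not at hn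
        have a1 := hn 1
        rw [map_one, mul_one, sub_eq_zero] at a1
        exact s2 (RingEquiv.ext fun x => by have := hn x; rwa [a1, one_mul, sub_eq_zero] at this)
      obtain ⟨r, r1, r2⟩ := h.top_spread hb hp hU (c := ε.symm (a * σ x - x)) (by rwa [Ne, map_eq_zero_iff _ ε.symm.injective])
      obtain ⟨n, hn, n1⟩ := k4 r r1
      have e1 := n1 (ε.symm (a * σ x - x))
      rw [smul_eq_neg (r1.mul_self hb) r2, map_neg, ε.apply_symm_apply] at e1
      have e2 : -(a * σ x - x) = a * σ (a * σ x - x) := by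
        rw [map_sub, map_mul, s1, mul_sub, ← mul_assoc, ha]; ring
      have e3 : a = ⟨T n, hTE n hn⟩ := mul_right_cancel₀ ((map_ne_zero σ).2 hx) (e2.symm.trans e1)
      rw [e3]
      exact ⟨⟨n, k1 n hn⟩, r, n1⟩
  obtain ⟨E', i1, i2, ⟨j⟩⟩ := exists_small_field E
  refine ⟨E', i1, i2, j.trans (σ.trans j.symm),
    ε.trans j.symm.toAddEquiv, fun x => by simp [s1], fun e => s2 (RingEquiv.ext fun x => ?_), fun g => ?_,
    fun a ha => ?_⟩
  · simpa using DFunLike.congr_fun e (j.symm x)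
  · obtain ⟨a, a1, a2⟩ := k5 g
    refine ⟨j.symm a, by simp [← map_mul, a1], a2.imp (fun e v => ?_) fun e v => ?_⟩ <;> simp [e]
  · obtain ⟨⟨g, a1⟩, g', a2⟩ := k6 (j a) (by simpa using congrArg j ha)
    exact ⟨⟨g, fun v => by simp [a1]⟩, g', fun v => by simp [a2]⟩

end CfsgLib.BinAff
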