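import Mathlib
import Cfsg.Agent.Lib.BinAff.Field

/-! Binary affine groups, part 6: from the permutation group to the linear problem. -/

namespace CfsgLib.BinAff

open MulAction

theorem affine_main {G Ω : Type*} [Group G] [Finite G] [MulAction G Ω] [FaithfulSMul G Ω] [Fintype Ω]
    [AddCommGroup Ω] [Nontrivial Ω] (hprim : IsPreprimitive G Ω) (h1 : ∀ c : Ω, ∃ g : G, ∀ x, g • x = x + c)
    (h2 : ∀ g : G, g • (0 : Ω) = 0 → ∀ x y : Ω, g • (x + y) = g • x + g • y)
    (hbin : ∀ (n : ℕ) (I J : Fin n → Ω), 2 ≤ n →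
      (∀ i j : Fin n, i ≠ j → ∃ g : G, g • I i = J i ∧ g • I j = J j) → ∃ g : G, ∀ i, g • I i = J i) :
    ((Fintype.card Ω).Prime ∧ ∀ ω : Ω, Nat.card ↥(MulAction.stabilizer G ω) ≤ 2) ∨
    (∃ (F E : Type) (_ : Field F) (_ : Fintype F) (_ : Field E) (_ : Fintype E) (_ : Algebra F E) (e : Ω ≃ E),
        Module.finrank F E = 2 ∧
        ∀ σ : Equiv.Perm Ω, σ ∈ (MulAction.toPermHom G Ω).range ↔
          ∃ (a b : E) (φ : E ≃ₐ[F] E), Algebra.norm F a = 1 ∧ ∀ ω : Ω, e (σ ω) = a * φ (e ω) + b) := by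
  classical
  let H := stabilizer G (0 : Ω)
  let _ : DistribMulAction H Ω :=
    { (inferInstance : MulAction H Ω) with
      smul_zero := fun h => h.2
      smul_add := fun h => h2 h.1 h.2 }
  have hsm : ∀ (h : H) (x : Ω), h • x = h.1 • x := fun _ _ => rfl
  have dec : ∀ g : G, ∃ h : H, ∀ x : Ω, g • x = h • x + g • (0 : Ω) := fun g => by
    obtain ⟨n, hn⟩ := h1 (-(g • (0 : Ω)))
    exact ⟨⟨n * g, by rw [mem_stabilizer_iff, mul_smul, hn, add_neg_cancel]⟩, fun x => by
      rw [hsm, mul_smul, hn, neg_add_cancel_right]⟩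
  have mk : ∀ (h : H) (c : Ω), ∃ g : G, ∀ x : Ω, g • x = h • x + c := fun h c => by
    obtain ⟨n, hn⟩ := h1 c
    exact ⟨n * h.1, fun x => by rw [mul_smul, hn, hsm]⟩
  have hb : Bin H Ω := fun R r1 r2 => by
    let f := (Fintype.equivFin (Ω × Ω)).symm
    let P : Fin (Fintype.card (Ω × Ω)) → Ω × Ω := fun i => if f i ∈ R then f i else 0
    have hP : ∀ i, P i ∈ R ∨ P i = 0 := fun i => by
      by_cases e : f i ∈ R
      · exact Or.inl (by simp [P, e])
      · exact Or.inr (by simp [P, e])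
    have r3 : ∀ i j, ∃ h : H, h • ((P i).1 - (P j).1) = (P i).2 - (P j).2 := fun i j => by
      rcases hP i with a | a <;> rcases hP j with b | b
      · exact r2 _ a _ b
      · simpa [b] using r1 _ a
      · simpa [a] using r1 _ b
      · exact ⟨1, by simp [a, b]⟩
    obtain ⟨g, hg⟩ := hbin _ (fun i => (P i).1) (fun i => (P i).2) Fintype.one_lt_card fun i j _ => by
      obtain ⟨h, hh⟩ := r3 i j
      obtain ⟨g, hg⟩ := mk h ((P j).2 - h • (P j).1)
      rw [smul_sub] at hh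
      exact ⟨g, by rw [hg, sub_eq_iff_eq_add.1 hh]; abel, by rw [hg]; abel⟩
    have g0 : g • (0 : Ω) = 0 := by
      have := hg (f.symm 0)
      simpa [P] using this
    refine ⟨⟨g, g0⟩, fun p hp => ?_⟩
    have := hg (f.symm p)
    rw [hsm]
    simpa [P, hp] using this
  have hi : Irr H Ω := fun U hU => by
    have key : ∀ (g : G) (a : Ω), a ∈ U → g • a ∈ U → ∀ x ∈ U, g • x ∈ U := fun g a a1 a2 x hx => by
      obtain ⟨h, hh⟩ := dec g
      rw [hh] at a2 ⊢
      exact add_mem (hU h x hx) ((add_mem_cancel_left (hU h a a1)).1 a2)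
    have hB : IsBlock G (U : Set Ω) := isBlock_iff_smul_eq_of_mem.2 fun g a a1 a2 => by
      refine subset_antisymm ?_ fun x hx => ⟨g⁻¹ • x, key g⁻¹ _ a2 (by simpa using a1) x hx, by simp⟩
      rintro _ ⟨x, hx, rfl⟩
      exact key g a a1 a2 x hx
    rcases hB.subsingleton_or_eq_univ with a | a
    · exact Or.inl (eq_bot_iff.2 fun x hx => a hx (zero_mem U))
    · exact Or.inr (AddSubgroup.coe_eq_univ.1 a)
  by_cases hc : ∀ t s : H, Sh Ω t → Sh Ω s → Commute t s
  · left
    have hA := caseA hb hi hc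
    constructor
    · have : IsSimpleAddGroup Ω := ⟨fun U _ => hi U fun g u hu => by
        rcases hA g with a | a
        · rwa [a, one_smul]
        · rw [a]; exact neg_mem hu⟩
      rw [← Nat.card_eq_fintype_card]
      exact IsSimpleAddGroup.prime_card
    · intro ω
      have e : Nat.card (stabilizer G ω) = Nat.card H :=
        Nat.card_congr (stabilizerEquivStabilizerOfOrbitRel (G := G) (a := ω) (b := 0)
          (exists_smul_eq G 0 ω)).toEquiv
      rw [e, ← show Nat.card Bool = 2 by simp]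
      refine Nat.card_le_card_of_injective (fun g : H => decide (g = 1)) fun a b hab => ?_
      have hab' : a = 1 ↔ b = 1 := by simpa using hab
      by_cases ea : a = 1
      · rw [ea, hab'.1 ea]
      · exact FaithfulSMul.eq_of_smul_eq_smul (α := Ω) fun x => by
          rw [(hA a).resolve_left ea, (hA b).resolve_left fun eb => ea (hab'.2 eb)]
  · right
    push Not at hc
    obtain ⟨t, s, ht, hs, hts⟩ := hc
    obtain ⟨E, i1, i2, σ, ε, a1, a2, a3, a4⟩ := NC.plane_field hb hi ⟨ht, hs, hts⟩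
    obtain ⟨F, j1, j2, j3, b1, b2, ⟨φ0, b3⟩, b4⟩ := field_part E σ a1 a2
    refine ⟨F, E, j1, j2, i1, Fintype.ofFinite E, j3, ε.toEquiv, b1, fun π => ⟨?_, ?_⟩⟩
    · rintro ⟨g, rfl⟩
      obtain ⟨h, hh⟩ := dec g
      obtain ⟨a, c1, c2⟩ := a3 h
      rcases c2 with c2 | c2
      · exact ⟨a, ε (g • 0), 1, (b4 a).2 c1, fun ω => by
          show ε (g • ω) = a * ε ω + _
          rw [hh ω, map_add, c2]⟩
      · exact ⟨a, ε (g • 0), φ0, (b4 a).2 c1, fun ω => by
          show ε (g • ω) = a * φ0 (ε ω) + _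
          rw [hh ω, map_add, c2, b3]⟩
    · rintro ⟨a, b, φ, c1, c2⟩
      obtain ⟨h, hh⟩ : ∃ h : H, ∀ v, ε (h • v) = a * φ (ε v) := by
        obtain ⟨⟨h, d1⟩, h', d2⟩ := a4 a ((b4 a).1 c1)
        rcases b2 φ with d | d
        · exact ⟨h, fun v => by rw [d1, d]⟩
        · exact ⟨h', fun v => by rw [d2, d]⟩
      obtain ⟨g, hg⟩ := mk h (ε.symm b)
      refine ⟨g, Equiv.ext fun ω => ε.injective ?_⟩
      show ε (g • ω) = _
      rw [hg, map_add, hh, ε.apply_symm_apply]
      exact (c2 ω).symm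

end CfsgLib.BinAff
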